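import Cfsg.Agent.H496.Gen.T2Main
import Cfsg.Agent.S1054
import Cfsg.Agent.S1055

/-!
# Toral subgroups in the models (helper496, hub S2187, piece T2 = X2)

`m : MData hp r q K₀`, `E ≤ Y^σ` elementary abelian of order `≥ p`, toral: `z y z⁻¹ ∈ TT` for `y ∈ E`.
* `toral_untw` (`D ≠ B₂, D₄`), `toral_D4` (`³D₄`) : there is `v ∈ Y^σ` such that `GamY` contains all `a ∈ K₀` with
  `v * ι a * v⁻¹ ∈ ⟨XX θ, XX (-θ)⟩`, `θ` the highest root; or `D = E₈`, `p ∣ q ^ 2 + 1`, and `E` has a frame with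
  `γ ^ 2 = -1`, regular (`ExcFrame`).
-/

set_option autoImplicit false
set_option linter.unusedSectionVars false

namespace Cfsg.Agent.H496.Gen.T2

open CoxeterSystem Cfsg Cfsg.Lie Cfsg.Lie.ChevalleyDatum
open Cfsg.Agent.ChevalleyStructure Cfsg.Agent.ChevalleyStructure.Elts Cfsg.Agent.ChevalleyStructure.CoxeterGeom
  Cfsg.Agent.ChevalleyStructure.CoxeterGeomTypes Cfsg.Agent.ChevalleyStructure.NPerm
open Cfsg.Agent.Tits.Roots Cfsg.Agent.Tits.Core Cfsg.Agent.Nodes Cfsg.Agent.Nodes.Reps Cfsg.Agent.Nodes.BNOf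
  Cfsg.Agent.Nodes.RGDChev Cfsg.Agent.Nodes.Bruhat Cfsg.Agent.Nodes.StabComb Cfsg.Agent.Nodes.Coroot
  Cfsg.Agent.Nodes.SubComb
open Cfsg.Agent.KFacts.RgdField Cfsg.Agent.KFacts.RgdChevCoord
open Cfsg.Agent.BpExc Cfsg.Agent.BpExc.TorCent Cfsg.Agent.BpExc.TorChev Cfsg.Agent.BpExc.Tow
open Cfsg.Agent.BpExc.TowChev Cfsg.Agent.BpExc.Fr Cfsg.Agent.BpExc.LangFr Cfsg.Agent.BpExc.HX
open Cfsg.Agent.BpExc.NChev Cfsg.Agent.BpExc.NInst
open Cfsg.Agent.H123.ExcComb Cfsg.Agent.H696.GmnToral Cfsg.Agent.H496.Gen.PairSet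
open Cfsg.Agent.H469.Exc Cfsg.Agent.H316.U6 Cfsg.Agent.H818.Gen

universe u v w

variable {D : ChevalleyDatum} {l : ℕ} {M : CoxeterMatrix (Fin l)} {hp : IsType D l M} {r q : ℕ}
  [hr : Fact r.Prime] {K₀ : Type v} [Group K₀]

theorem center_bot {G : Type*} [Group G] (h : IsSimpleGroup G ∧ ¬ IsMulCommutative G) : Subgroup.center G = ⊥ := by
  obtain ⟨h1, h2⟩ := h
  rcases (inferInstance : (Subgroup.center G).Normal).eq_bot_or_eq_top with h3 | h3
  · exact h3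
  · exfalso
    apply h2
    refine ⟨⟨fun a b => ?_⟩⟩
    have : b ∈ Subgroup.center G := by rw [h3]; trivial
    exact Subgroup.mem_center_iff.1 this a

/-- `D.group k` has trivial centre, `k` algebraically closed. -/
theorem center_group (hp : IsType D l M) (hB2 : D ≠ chevB2) (k : Type u) [Field k] [IsAlgClosed k] :
    Subgroup.center ↥(D.group k) = ⊥ := by
  have : Infinite k := IsAlgClosed.instInfinite
  simp only [IsType, typeList, List.mem_cons, List.not_mem_nil, or_false, Prod.mk.injEq] at hp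
  rcases hp with ⟨rfl, h⟩ | ⟨rfl, h⟩ | ⟨rfl, h⟩ | ⟨rfl, h⟩ | ⟨rfl, h⟩ | ⟨rfl, h⟩ | ⟨rfl, h⟩
  · refine center_bot (S1055.result ?_)
    classical
    obtain ⟨a, ha⟩ := Infinite.exists_notMem_finset ({0, 1} : Finset k)
    exact ⟨a, fun h => ha (by simp [h]), fun h => ha (by simp [h])⟩
  · exact absurd rfl hB2
  · exact center_bot (S1054.result chevD4 (by simp))
  · exact center_bot (S1054.result chevF4 (by simp))
  · exact center_bot (S1054.result chevE6 (by simp))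
  · exact center_bot (S1054.result chevE7 (by simp))
  · exact center_bot (S1054.result chevE8 (by simp))

/-- `E ≤ Y^σ` is finite -/
theorem finite_E (m : MData hp r q K₀) {E : Subgroup ↥(D.group (KK r))} (hE : ∀ y ∈ E, m.σ y = y) : Finite ↥E := by
  have := m.fin
  have hle : E ≤ fixedSubgroup m.σ := fun y hy => hE y hy
  exact Finite.of_injective _ (Subgroup.inclusion_injective hle)

/-- **`LongComm` and the group generated by the centralisers of the hyperplanes.** -/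
theorem mem_of_longComm (m : MData hp r q K₀) {p : ℕ} [Fact p.Prime] {E : Subgroup ↥(D.group (KK r))}
    (hE : IsElementaryAbelian p E) (hσ : ∀ y ∈ E, m.σ y = y) (hc : p ≤ Nat.card E) (h : LongComm l m.σ p E) :
    ∃ v, m.σ v = v ∧ ∀ a : K₀, v * m.ι a * v⁻¹ ∈ XX D l (KK r) (vec D l (D.nroots - 1)) ⊔
      XX D l (KK r) (-vec D l (D.nroots - 1)) → a ∈ GamY m.ι p E := by
  have := finite_E m hσ
  obtain ⟨v, hv, F, hF, hFE, h1⟩ := h
  refine ⟨v, hv, fun a ha => ?_⟩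
  have h2 : ∀ y ∈ F, y * m.ι a = m.ι a * y := by
    intro y hy
    have h3 := h1 y hy _ ha
    have h4 : v * (y * m.ι a) * v⁻¹ = v * (m.ι a * y) * v⁻¹ := by
      calc v * (y * m.ι a) * v⁻¹ = v * y * v⁻¹ * (v * m.ι a * v⁻¹) := by group
        _ = v * m.ι a * v⁻¹ * (v * y * v⁻¹) := h3
        _ = _ := by group
    exact mul_left_cancel (mul_right_cancel h4)
  rcases hFE with h3 | h3
  · obtain ⟨F₁, hF₁, hi⟩ := exists_hyperplane hE hc
    exact mem_GamY hF₁ hi fun y hy => h2 y (by rw [h3]; exact hF₁ hy)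
  · exact mem_GamY hF h3 h2

/-- the exceptional case: `p ∣ q ^ 2 + 1` -/
theorem dvd_of_excFrame (hB2 : D ≠ chevB2) (m : MData hp r q K₀) {p : ℕ} [hpp : Fact p.Prime]
    {E : Subgroup ↥(D.group (KK r))} (hE : ∀ y ∈ E, y ^ p = 1) (hσ : ∀ y ∈ E, m.σ y = y) (h1 : ∃ y ∈ E, y ≠ 1)
    (h : ExcFrame M.toCoxeterSystem hp m.σ m.g (locFin r) r E) : p ∣ q ^ 2 + 1 := by
  obtain ⟨-, z, c, w, F, -, h8, -⟩ := h
  obtain ⟨y, hy, hy1⟩ := h1
  obtain ⟨γ, hγ⟩ : ∃ γ, γ = m.g.trans (repAut M.toCoxeterSystem hp.isCartan w) := ⟨_, rfl⟩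
  rw [← hγ] at F h8
  have hk := locFin r
  have htT := F.tor ⟨y, hy⟩
  have hfix := F.fix (i := ⟨y, hy⟩) (hσ y hy)
  obtain ⟨t, ht⟩ : ∃ t, t = z⁻¹ * y * z := ⟨_, rfl⟩
  simp only [← ht] at htT hfix
  have ht1 : t ≠ 1 := by
    rintro rfl
    apply hy1
    have : y = z * (z⁻¹ * y * z) * z⁻¹ := by group
    rw [this, ← ht, mul_one, mul_inv_cancel]
  have htp : t ^ p = 1 := by
    have : t = z⁻¹ * y * z⁻¹⁻¹ := by rw [inv_inv, ht]
    rw [this, conj_pow, hE y hy, mul_one, mul_inv_cancel]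
  obtain ⟨a, ha, hat⟩ : ∃ a, IsRoot M.toCoxeterSystem hp.isCartan a ∧ ch hp a t ≠ 1 := by
    by_contra hcon
    push Not at hcon
    exact ht1 (eq_one_TT hp M.toCoxeterSystem hk r (center_group hp hB2 _) htT hcon)
  have h2 : ∀ b, IsRoot M.toCoxeterSystem hp.isCartan b → ch hp (γ b) t = ch hp b t ^ q := by
    intro b hb
    have h3 := fr_ch hp M.toCoxeterSystem hk (m.frob.conj_mul c) F.fr hb htT
    rw [hfix, m.hq] at h3
    exact h3
  have h3 : ch hp a t ^ (q ^ 2 + 1) = 1 := by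
    have h4 := h2 _ ((F.fr.root a).2 ha)
    rw [h8, h2 a ha, ch_neg hp M.toCoxeterSystem hk r ha htT, ← pow_mul, ← pow_two] at h4
    rw [pow_succ, ← h4, inv_mul_cancel₀ (ch_ne_zero hp M.toCoxeterSystem hk r ha htT)]
  have h4 : ch hp a t ^ p = 1 := by
    rw [← ch_pow hp M.toCoxeterSystem hk r ha htT, htp]
    exact ch_one hp M.toCoxeterSystem hk r ha
  rw [← orderOf_eq_prime h4 hat]
  exact orderOf_dvd_of_pow_eq_one h3

/-- **The main theorem for the models.** -/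
theorem toral_of_cmb (hB2 : D ≠ chevB2) (m : MData hp r q K₀)
    (hcmb : ∀ w : M.Group, (∀ a, IsRoot M.toCoxeterSystem hp.isCartan
      ((m.g.trans (repAut M.toCoxeterSystem hp.isCartan w)) a) ↔ IsRoot M.toCoxeterSystem hp.isCartan a) →
      Cmb hp M.toCoxeterSystem (m.g.trans (repAut M.toCoxeterSystem hp.isCartan w))) {p : ℕ} [hpp : Fact p.Prime]
    (hp2 : p ≠ 2) {E : Subgroup ↥(D.group (KK r))} (hE : IsElementaryAbelian p E) (hσ : ∀ y ∈ E, m.σ y = y)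
    (hc : p ≤ Nat.card E) {z : ↥(D.group (KK r))} (hz : ∀ y ∈ E, z * y * z⁻¹ ∈ TT D (KK r)) :
    (∃ v, m.σ v = v ∧ ∀ a : K₀, v * m.ι a * v⁻¹ ∈ XX D l (KK r) (vec D l (D.nroots - 1)) ⊔
      XX D l (KK r) (-vec D l (D.nroots - 1)) → a ∈ GamY m.ι p E) ∨
    (p ∣ q ^ 2 + 1 ∧ ExcFrame M.toCoxeterSystem hp m.σ m.g (locFin r) r E) := by
  have := finite_E m hσ
  rcases longComm_or (hp := hp) M.toCoxeterSystem (locFin r) (center_group hp hB2 _) hB2 m.he m.frob m.fr m.top hcmb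
    hp2 hE.2 hσ (z := z⁻¹) (fun y hy => by rw [inv_inv]; exact hz y hy) with h | h
  · exact Or.inl (mem_of_longComm m hE hσ hc h)
  · refine Or.inr ⟨dvd_of_excFrame hB2 m hE.2 hσ ?_ h, h⟩
    by_contra hcon
    push Not at hcon
    have h1 : E = ⊥ := (Subgroup.eq_bot_iff_forall _).2 hcon
    rw [h1, Subgroup.card_bot] at hc
    have := hpp.out.one_lt
    omega

/-- **`G₂, F₄, E₆, ²E₆, E₇, E₈`.** -/
theorem toral_untw (hB2 : D ≠ chevB2) (hD4 : D ≠ chevD4) (m : MData hp r q K₀) {p : ℕ} [Fact p.Prime]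
    (hp2 : p ≠ 2) {E : Subgroup ↥(D.group (KK r))} (hE : IsElementaryAbelian p E) (hσ : ∀ y ∈ E, m.σ y = y)
    (hc : p ≤ Nat.card E) {z : ↥(D.group (KK r))} (hz : ∀ y ∈ E, z * y * z⁻¹ ∈ TT D (KK r)) :
    (∃ v, m.σ v = v ∧ ∀ a : K₀, v * m.ι a * v⁻¹ ∈ XX D l (KK r) (vec D l (D.nroots - 1)) ⊔
      XX D l (KK r) (-vec D l (D.nroots - 1)) → a ∈ GamY m.ι p E) ∨
    (p ∣ q ^ 2 + 1 ∧ ExcFrame M.toCoxeterSystem hp m.σ m.g (locFin r) r E) :=
  toral_of_cmb hB2 m (fun _ hw => cmb_untw hp M.toCoxeterSystem hB2 hD4 hw) hp2 hE hσ hc hz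

/-- **`³D₄`.** -/
theorem toral_D4 {M : CoxeterMatrix (Fin 4)} {hp : IsType chevD4 4 M} (m : MData hp r q K₀)
    (hg : m.g = H720.TwFr.permE H720.TwFr.rho4) {p : ℕ} [Fact p.Prime]
    (hp2 : p ≠ 2) {E : Subgroup ↥(chevD4.group (KK r))} (hE : IsElementaryAbelian p E) (hσ : ∀ y ∈ E, m.σ y = y)
    (hc : p ≤ Nat.card E) {z : ↥(chevD4.group (KK r))} (hz : ∀ y ∈ E, z * y * z⁻¹ ∈ TT chevD4 (KK r)) :
    ∃ v, m.σ v = v ∧ ∀ a : K₀, v * m.ι a * v⁻¹ ∈ XX chevD4 4 (KK r) (vec chevD4 4 (chevD4.nroots - 1)) ⊔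
      XX chevD4 4 (KK r) (-vec chevD4 4 (chevD4.nroots - 1)) → a ∈ GamY m.ι p E := by
  rcases toral_of_cmb (fun e => by
      have := congrArg ChevalleyDatum.nroots e
      revert this
      decide +kernel) m (fun w hw => cmb_D4 hp M.toCoxeterSystem hw (w := w) (by rw [hg])) hp2 hE hσ hc hz with
    h | ⟨-, h, -⟩
  · exact h
  · exfalso
    have := congrArg ChevalleyDatum.nroots h
    revert this
    decide +kernel

end Cfsg.Agent.H496.Gen.T2
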