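import Cfsg.Agent.H123.ExcComb
import Cfsg.Agent.BpExc.Fr

/-!
# Long roots and products of reflections (helper496, hub S2187, piece T2)

* `LongR cs h θ` : `θ` is a root and `|⟨b, θ^∨⟩| ≤ 1` for all roots `b ≠ ± θ`; invariant under the automorphisms of the
  root system;
* `exists_move` : two long roots `x`, `θ` of a closed symmetric set `S`, not orthogonal, are conjugate under the group
  generated by the reflections of the roots of `S`;
* `exists_move_half` : the same if `x`, `θ` are orthogonal and `2 c = θ - x`.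
-/

set_option autoImplicit false
set_option linter.unusedSectionVars false

namespace Cfsg.Agent.H496.Gen.T2

open CoxeterSystem Cfsg.Agent.ChevalleyStructure.CoxeterGeom Cfsg.Agent.Tits.Roots Cfsg.Agent.Tits.Core
  Cfsg.Agent.Tits.RootComb Cfsg.Agent.Tits.Exchange Cfsg.Agent.Nodes.Reps Cfsg.Agent.Nodes.BNOf
  Cfsg.Agent.Nodes.StabComb Cfsg.Agent.Nodes.SubComb Cfsg.Agent.Nodes.Coroot Cfsg.Agent.H123.ExcComb
  Cfsg.Agent.BpExc.Fr

variable {I W : Type*} [Fintype I] [DecidableEq I] [Group W] [Finite W] {M : CoxeterMatrix I}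
  {cs : CoxeterSystem M W} {A : I → I → ℤ} {h : IsCartan M A}

/-- `θ` is a long root. -/
def LongR (cs : CoxeterSystem M W) (h : IsCartan M A) (θ : I → ℤ) : Prop :=
  IsRoot cs h θ ∧ ∀ b, IsRoot cs h b → b ≠ θ → b ≠ -θ → -1 ≤ cpr cs h b θ ∧ cpr cs h b θ ≤ 1

theorem LongR.g {g : (I → ℤ) ≃+ (I → ℤ)} (hg : ∀ a, IsRoot cs h (g a) ↔ IsRoot cs h a) {θ : I → ℤ}
    (H : LongR cs h θ) : LongR cs h (g θ) := by
  refine ⟨(hg _).2 H.1, fun b hb h1 h2 => ?_⟩
  obtain ⟨a, rfl⟩ := g.surjective b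
  rw [cpr_g hg ((hg _).1 hb) H.1]
  refine H.2 a ((hg _).1 hb) (fun e => h1 (by rw [e])) fun e => h2 (by rw [e, map_neg])

theorem LongR.neg {θ : I → ℤ} (H : LongR cs h θ) : LongR cs h (-θ) := by
  refine ⟨H.1.neg, fun b hb h1 h2 => ?_⟩
  rw [neg_neg] at h2
  obtain ⟨h3, h4⟩ := H.2 b hb h2 h1
  rw [cpr_neg_right cs h b H.1]
  omega

/-- a root orthogonal to a long root has no root combinations with it -/
theorem LongR.not_root {θ : I → ℤ} (H : LongR cs h θ) {a : I → ℤ} (ha : IsRoot cs h a) (h0 : cpr cs h a θ = 0)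
    {m n : ℕ} (hm : 0 < m) (hn : 0 < n) : ¬ IsRoot cs h (m • a + n • θ) := by
  intro hr
  have h1 : cpr cs h (m • a + n • θ) θ = 2 * n := by
    rw [← natCast_zsmul, ← natCast_zsmul, cpr_add cs h _ _ H.1, cpr_smul cs h _ _ H.1, cpr_smul cs h _ _ H.1, h0,
      cpr_self cs h H.1]
    ring
  have h2 : m • a + n • θ = θ := by
    by_contra hne
    have hne' : m • a + n • θ ≠ -θ := by
      intro e
      rw [e, cpr_self_neg H.1] at h1
      omega
    have := (H.2 _ hr hne hne').2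
    rw [h1] at this
    omega
  rw [h2, cpr_self cs h H.1] at h1
  have h3 : n = 1 := by omega
  rw [h3, one_smul] at h2
  have h4 : m • a = 0 := by
    have := congrArg (fun z => z - θ) h2
    simpa using this
  exact ha.ne_zero ((smul_eq_zero.1 h4).resolve_left hm.ne')

/-- the group generated by the reflections: properties used -/
def ReflIn (cs : CoxeterSystem M W) (h : IsCartan M A) (S : Set (I → ℤ)) (V : Subgroup W) : Prop :=
  ∀ a ∈ S, ∃ v ∈ V, ∀ x, rep cs h v x = x - cpr cs h x a • a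

/-- `c = θ - x` with `⟨x, θ^∨⟩ > 0`: the reflection maps `x` to `θ` -/
theorem cpr_diff {x θ : I → ℤ} (Hx : LongR cs h x) (Hθ : LongR cs h θ) (hne : x ≠ θ) (h0 : 0 < cpr cs h x θ) :
    IsRoot cs h (θ - x) ∧ cpr cs h x (θ - x) = -1 := by
  have hne' : x ≠ -θ := by
    rintro rfl
    rw [cpr_self_neg Hθ.1] at h0
    omega
  have h1 : cpr cs h x θ = 1 := by
    have := (Hθ.2 x Hx.1 hne hne').2
    omega
  have h0' := (cpr_pos_comm Hx.1 Hθ.1).1 h0
  have h2 : cpr cs h θ x = 1 := by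
    have := (Hx.2 θ Hθ.1 hne.symm fun e => hne' (by rw [e, neg_neg])).2
    omega
  have h3 : IsRoot cs h (θ - x) := sub_root Hθ.1 Hx.1 hne.symm h0'
  refine ⟨h3, ?_⟩
  have h4 : cpr cs h (θ - x) θ = 1 := by rw [cpr_sub Hθ.1, cpr_self cs h Hθ.1, h1]; norm_num
  have h5 : cpr cs h (θ - x) x = -1 := by rw [cpr_sub Hx.1, cpr_self cs h Hx.1, h2]; norm_num
  have h6 : 0 < cpr cs h θ (θ - x) := (cpr_pos_comm h3 Hθ.1).1 (by rw [h4]; norm_num)
  have h7 : cpr cs h x (θ - x) < 0 := by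
    have h8 : 0 < cpr cs h (-x) (θ - x) := (cpr_pos_comm h3 Hx.1.neg).1 (by
      rw [cpr_neg_right cs h _ Hx.1, h5]; norm_num)
    rw [cpr_neg cs h _ h3] at h8
    omega
  have h8 : cpr cs h θ (θ - x) - cpr cs h x (θ - x) = 2 := by rw [← cpr_sub h3, cpr_self cs h h3]
  omega

/-- **Non-orthogonal long roots.** -/
theorem exists_move {S : Set (I → ℤ)} {V : Subgroup W} (hV : ReflIn cs h S V) (hneg : ∀ a ∈ S, -a ∈ S)
    (hsub : ∀ a ∈ S, ∀ b ∈ S, IsRoot cs h (a - b) → a - b ∈ S) {x θ : I → ℤ} (Hx : LongR cs h x)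
    (Hθ : LongR cs h θ) (hxS : x ∈ S) (hθS : θ ∈ S) (h0 : cpr cs h x θ ≠ 0) : ∃ v ∈ V, rep cs h v x = θ := by
  -- positive case
  have pos : ∀ {x : I → ℤ}, LongR cs h x → x ∈ S → 0 < cpr cs h x θ → ∃ v ∈ V, rep cs h v x = θ := by
    intro x Hx hxS h0
    by_cases hne : x = θ
    · exact ⟨1, one_mem _, by rw [map_one, Module.End.one_apply, hne]⟩
    obtain ⟨h1, h2⟩ := cpr_diff Hx Hθ hne h0
    obtain ⟨v, hv, hvx⟩ := hV _ (hsub _ hθS _ hxS h1)
    refine ⟨v, hv, ?_⟩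
    rw [hvx, h2]
    module
  rcases lt_or_gt_of_ne h0 with h1 | h1
  · -- negative case
    obtain ⟨v, hv, hvx⟩ := pos Hx.neg (hneg _ hxS) (by rw [cpr_neg cs h _ Hθ.1]; omega)
    obtain ⟨v', hv', hvx'⟩ := hV _ hθS
    refine ⟨v' * v, mul_mem hv' hv, ?_⟩
    rw [map_neg] at hvx
    have h2 : rep cs h v x = -θ := by rw [← hvx, neg_neg]
    rw [rep_mul_apply, h2, hvx', cpr_self_neg Hθ.1]
    module
  · exact pos Hx hxS h1

/-- **Orthogonal roots with a half difference.** -/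
theorem exists_move_half {S : Set (I → ℤ)} {V : Subgroup W} (hV : ReflIn cs h S V) {x θ c : I → ℤ}
    (hc : c ∈ S) (h2c : c + c = θ - x) (h0 : cpr cs h x c = -2) : ∃ v ∈ V, rep cs h v x = θ := by
  obtain ⟨v, hv, hvx⟩ := hV _ hc
  refine ⟨v, hv, ?_⟩
  rw [hvx, h0]
  have h1 : x - (-2 : ℤ) • c = x + (c + c) := by module
  rw [h1, h2c]
  abel

end Cfsg.Agent.H496.Gen.T2
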