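import Cfsg.Agent.H496.Gen.PairSet
import Cfsg.Agent.H496.Gen.T2Comb
import Cfsg.Agent.H696.GmnToral
import Cfsg.Agent.H238.ExcCore

/-!
# Frames of toral families (helper496, hub S2187, piece T2)

`Y = D.group k`, `σ` a frame automorphism of Frobenius type, `x : ι → Y` a family conjugate into the torus.

* `Frm hp cs σ x z c γ` : `z⁻¹ x i z ∈ TT`, `z⁻¹ σ(z) = c`, `Fr … (conj c * σ) γ`;
* `Frm.conj` : change of the frame by an element of `N`; `Frm.lang` : by an element of `Sup XX S` (Lang's theorem);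
* `Frm.fin` : `g θ = θ`, `γ θ = θ`, `θ` long and dominant, `χ_θ = 1` on the family: then a conjugate of the family by an
  element of `Y^σ` centralises `XX θ` and `XX (-θ)`.
-/

set_option autoImplicit false
set_option linter.unusedSectionVars false

namespace Cfsg.Agent.H496.Gen.T2

open CoxeterSystem Cfsg Cfsg.Lie Cfsg.Lie.ChevalleyDatum
open Cfsg.Agent.ChevalleyStructure Cfsg.Agent.ChevalleyStructure.Elts Cfsg.Agent.ChevalleyStructure.CoxeterGeom
  Cfsg.Agent.ChevalleyStructure.CoxeterGeomTypes Cfsg.Agent.ChevalleyStructure.NPerm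
open Cfsg.Agent.Tits.Roots Cfsg.Agent.Tits.Core Cfsg.Agent.Nodes Cfsg.Agent.Nodes.Reps Cfsg.Agent.Nodes.BNOf
  Cfsg.Agent.Nodes.RGDChev Cfsg.Agent.Nodes.Bruhat Cfsg.Agent.Nodes.StabComb Cfsg.Agent.Nodes.Coroot
  Cfsg.Agent.Nodes.SubComb
open Cfsg.Agent.KFacts.RgdField Cfsg.Agent.KFacts.RgdChevCoord
open Cfsg.Agent.BpExc Cfsg.Agent.BpExc.TorCent Cfsg.Agent.BpExc.TorChev Cfsg.Agent.BpExc.Tow
open Cfsg.Agent.BpExc.TowChev Cfsg.Agent.BpExc.Fr Cfsg.Agent.BpExc.LangFr Cfsg.Agent.BpExc.HX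
open Cfsg.Agent.BpExc.NChev Cfsg.Agent.BpExc.NInst
open Cfsg.Agent.H123.ExcComb Cfsg.Agent.H696.GmnToral Cfsg.Agent.H496.Gen.PairSet

universe u v w

variable {D : ChevalleyDatum} {l : ℕ} {M : CoxeterMatrix (Fin l)} (hp : IsType D l M) {k : Type u} [Field k]
  {W : Type v} [Group W] (cs : CoxeterSystem M W)

/-- A frame for the family `x`. -/
structure Frm (σ : MulAut ↥(D.group k)) {ι : Type w} (x : ι → ↥(D.group k)) (z c : ↥(D.group k))
    (γ : (Fin l → ℤ) ≃+ (Fin l → ℤ)) : Prop where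
  tor : ∀ i, z⁻¹ * x i * z ∈ TT D k
  eq : z⁻¹ * σ z = c
  fr : Fr cs hp.isCartan (TT D k) (XX D l k) (MulAut.conj c * σ) γ

variable {hp cs} {σ : MulAut ↥(D.group k)} {ι : Type w} {x : ι → ↥(D.group k)} {z c : ↥(D.group k)}
  {γ : (Fin l → ℤ) ≃+ (Fin l → ℤ)}

theorem Frm.comp (F : Frm hp cs σ x z c γ) {κ : Type*} (f : κ → ι) : Frm hp cs σ (x ∘ f) z c γ :=
  ⟨fun i => F.tor (f i), F.eq, F.fr⟩

theorem Frm.fix (F : Frm hp cs σ x z c γ) {i : ι} (hi : σ (x i) = x i) :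
    (MulAut.conj c * σ) (z⁻¹ * x i * z) = z⁻¹ * x i * z := by
  show c * σ (z⁻¹ * x i * z) * c⁻¹ = _
  rw [map_mul, map_mul, map_inv, hi, ← F.eq]
  group

section

variable {r e : ℕ} [Fact r.Prime] [CharP k r] [IsAlgClosed k] (hk : LocFin k)

include hk in
/-- change of the frame by an element of `N` -/
theorem Frm.conj (F : Frm hp cs σ x z c γ) {v : W} {n : ↥(D.group k)}
    (hn : Rp cs (tow hp cs hk r (k := k)).nsys v n) :
    Frm hp cs σ x (z * n⁻¹) (n * c * (σ n)⁻¹)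
      ((repAut cs hp.isCartan v).symm.trans (γ.trans (repAut cs hp.isCartan v))) := by
  have hTL := TL_eq hp hk
  have hXL := XL_eq hp hk
  have F1 := Fr.conj (tow hp cs hk r) hn
  rw [hTL, hXL] at F1
  refine ⟨fun i => ?_, ?_, ?_⟩
  · have h1 := (F1.tor (z⁻¹ * x i * z)).2 (F.tor i)
    rw [MulAut.conj_apply] at h1
    have e1 : (z * n⁻¹)⁻¹ * x i * (z * n⁻¹) = n * (z⁻¹ * x i * z) * n⁻¹ := by group
    rw [e1]
    exact h1
  · rw [map_mul, map_inv, ← F.eq]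
    group
  · have h1 := (F1.mul F.fr).mul F1.inv
    have e1 : MulAut.conj n * (MulAut.conj c * σ) * (MulAut.conj n)⁻¹ = MulAut.conj (n * c * (σ n)⁻¹) * σ := by
      apply MulEquiv.ext
      intro y
      have h2 : (MulAut.conj n)⁻¹ y = n⁻¹ * y * n := by rw [← map_inv, MulAut.conj_apply, inv_inv]
      show n * (c * σ ((MulAut.conj n)⁻¹ y) * c⁻¹) * n⁻¹ = n * c * (σ n)⁻¹ * σ y * (n * c * (σ n)⁻¹)⁻¹
      rw [h2, map_mul, map_mul, map_inv]
      group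
    rw [e1] at h1
    exact h1

include hk in
/-- change of the frame by Lang's theorem -/
theorem Frm.lang (F : Frm hp cs σ x z c γ) (he : 0 < e) (hσ : IsFrob r e σ) {S : Set (Fin l → ℤ)}
    (hS : ∀ a ∈ S, IsRoot cs hp.isCartan a) (hg : ∀ a ∈ S, γ a ∈ S)
    (hc : ∀ y ∈ RGD.Sup (XX D l k) S, ∀ i, y * (z⁻¹ * x i * z) = z⁻¹ * x i * z * y) {v : W} {m : ↥(D.group k)}
    (hm : m ∈ RGD.Sup (XX D l k) S) (hv : Rp cs (tow hp cs hk r (k := k)).nsys v m) :
    ∃ y ∈ RGD.Sup (XX D l k) S, Frm hp cs σ x (z * y) (m * c) (γ.trans (repAut cs hp.isCartan v)) ∧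
      ∀ i, (z * y)⁻¹ * x i * (z * y) = z⁻¹ * x i * z := by
  have hTL := TL_eq hp hk
  have hXL := XL_eq hp hk
  have F1 := Fr.conj (tow hp cs hk r) hv
  rw [hTL, hXL] at F1
  obtain ⟨y, hy, e1⟩ := lang_fr hp cs he (hσ.conj_mul c) F.fr hS hg hm
  have hyt : ∀ i, (z * y)⁻¹ * x i * (z * y) = z⁻¹ * x i * z := by
    intro i
    have h1 := hc y hy i
    calc (z * y)⁻¹ * x i * (z * y) = y⁻¹ * ((z⁻¹ * x i * z) * y) := by group
      _ = y⁻¹ * (y * (z⁻¹ * x i * z)) := by rw [h1]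
      _ = _ := by group
  refine ⟨y, hy, ⟨fun i => by rw [hyt]; exact F.tor i, ?_, ?_⟩, hyt⟩
  · have h2 : m = y⁻¹ * (c * σ y * c⁻¹) := e1
    rw [map_mul, h2]
    have h3 : σ z = z * c := by rw [← F.eq]; group
    rw [h3]
    group
  · have h1 := F1.mul F.fr
    have e2 : MulAut.conj m * (MulAut.conj c * σ) = MulAut.conj (m * c) * σ := by
      rw [← mul_assoc, ← map_mul]
    rw [e2] at h1
    exact h1

end

/-! ### representatives in parabolic subgroups -/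

section Rep

variable {r : ℕ} [Fact r.Prime] [CharP k r] (hk : LocFin k)

include hk in
/-- the simple reflections are represented in the rank one groups -/
theorem exists_simple_rep [Finite W] (i : Fin l) : ∃ m ∈ XX D l k (sr i) ⊔ XX D l k (-sr i),
    Rp cs (tow hp cs hk r (k := k)).nsys (cs.simple i) m := by
  have hTL := TL_eq hp hk
  have hXL := XL_eq hp hk
  have H := tow hp cs hk r (k := k)
  obtain ⟨j⟩ := H.ne
  have h1 := TorCent.n_mem (H.rgd j) i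
  have ha := isRoot_sr cs hp.isCartan i
  have hTn : Tj hp j ≤ Subgroup.normalizer ((Xj hp j (sr i) ⊔ Xj hp j (-sr i) : Subgroup ↥(D.group k)) :
      Set ↥(D.group k)) := by
    intro s hs
    rw [mem_normalizer_iff_cj, cj_sup, (H.rgd j).tor (sr i) ha s hs, (H.rgd j).tor (-sr i) ha.neg s hs]
  have h4 : nc hp k i ∈ ((Tj hp j ⊔ (Xj hp j (sr i) ⊔ Xj hp j (-sr i)) : Subgroup ↥(D.group k)) :
      Set ↥(D.group k)) := h1
  rw [Subgroup.coe_mul_of_left_le_normalizer_right _ _ hTn, Set.mem_mul] at h4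
  obtain ⟨s, hs, u, hu, e⟩ := h4
  refine ⟨u, ?_, H.rp_up (j := j) ?_⟩
  · rw [← hXL]
    exact sup_le_sup (le_XL j _) (le_XL j _) hu
  · have h5 := (rp_of_mem (cs := cs) (hN := (H.rgd j).nsys) (inv_mem hs)).mul (rp_simple cs (H.rgd j).nsys i)
    rw [one_mul] at h5
    have h6 : s⁻¹ * nc hp k i = u := by rw [← e]; group
    rwa [h6] at h5

include hk in
/-- the elements of `W_J` are represented in the group generated by the root groups of `J` -/
theorem exists_rep_WJ [Finite W] {J : Set (Fin l)} {S : Set (Fin l → ℤ)} (hS : ∀ j ∈ J, sr j ∈ S ∧ -sr j ∈ S)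
    {v : W} (hv : v ∈ WJ cs J) :
    ∃ m ∈ RGD.Sup (XX D l k) S, Rp cs (tow hp cs hk r (k := k)).nsys v m := by
  let V : Subgroup W :=
    { carrier := {v | ∃ m ∈ RGD.Sup (XX D l k) S, Rp cs (tow hp cs hk r (k := k)).nsys v m}
      one_mem' := ⟨1, one_mem _, rp_one⟩
      mul_mem' := by
        rintro a b ⟨m, hm, hm'⟩ ⟨m', hm1, hm2⟩
        exact ⟨m * m', mul_mem hm hm1, hm'.mul hm2⟩
      inv_mem' := by
        rintro a ⟨m, hm, hm'⟩
        exact ⟨m⁻¹, inv_mem hm, hm'.inv⟩ }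
  have h1 : WJ cs J ≤ V := by
    unfold WJ
    rw [Subgroup.closure_le]
    rintro _ ⟨j, hj, rfl⟩
    obtain ⟨m, hm, hm'⟩ := exists_simple_rep (hp := hp) (cs := cs) (r := r) hk j
    exact ⟨m, (sup_le (RGD.le_Sup (hS j hj).1) (RGD.le_Sup (hS j hj).2) :
      XX D l k (sr j) ⊔ XX D l k (-sr j) ≤ RGD.Sup (XX D l k) S) hm, hm'⟩
  exact h1 hv

end Rep

/-! ### the end -/

section Fin

variable {r e : ℕ} [Fact r.Prime] [CharP k r] [IsAlgClosed k] (hk : LocFin k)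

/-- the roots orthogonal to `θ` -/
def S0 (hp : IsType D l M) (cs : CoxeterSystem M W) (θ : Fin l → ℤ) : Set (Fin l → ℤ) :=
  {a | IsRoot cs hp.isCartan a ∧ cpr cs hp.isCartan a θ = 0}

theorem S0_comm [Finite W] {θ : Fin l → ℤ} (Hθ : LongR cs hp.isCartan θ) {y : ↥(D.group k)}
    (hy : y ∈ RGD.Sup (XX D l k) (S0 hp cs θ)) {u : ↥(D.group k)} (hu : u ∈ XX D l k θ) : y * u = u * y := by
  have h1 : RGD.Sup (XX D l k) (S0 hp cs θ) ≤ Subgroup.centralizer {u} := by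
    refine RGD.Sup_le fun a ha => ?_
    intro b hb
    rw [Subgroup.mem_centralizer_singleton_iff]
    refine (H238.ExcCore.commute_of_sum hp cs ha.1 Hθ.1 ?_ ?_ (fun m n hm hn => ?_) hb hu).eq
    · rintro rfl
      have := ha.2
      rw [cpr_self cs hp.isCartan ha.1] at this
      omega
    · rintro rfl
      have := ha.2
      rw [cpr_self_neg Hθ.1] at this
      omega
    · exact Hθ.not_root ha.1 ha.2 hm hn
  exact Subgroup.mem_centralizer_singleton_iff.1 (h1 hy)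

theorem S0_neg [Finite W] {θ : Fin l → ℤ} (hθ : IsRoot cs hp.isCartan θ) : S0 hp cs (-θ) = S0 hp cs θ := by
  ext a
  constructor
  · rintro ⟨h1, h2⟩
    rw [cpr_neg_right cs _ _ hθ, neg_eq_zero] at h2
    exact ⟨h1, h2⟩
  · rintro ⟨h1, h2⟩
    refine ⟨h1, ?_⟩
    rw [cpr_neg_right cs _ _ hθ, neg_eq_zero]
    exact h2

include hk in
/-- **The end of the argument.** -/
theorem Frm.fin (hZ : Subgroup.center ↥(D.group k) = ⊥) (he : 0 < e) (hσ : IsFrob r e σ)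
    {g : (Fin l → ℤ) ≃+ (Fin l → ℤ)} (Fσ : Fr cs hp.isCartan (TT D k) (XX D l k) σ g) {θ : Fin l → ℤ}
    (Hθ : LongR cs hp.isCartan θ) (hdom : Dom (cartanOf D l) θ) (hgθ : g θ = θ) (hγθ : γ θ = θ)
    (F : Frm hp cs σ x z c γ) (hx : ∀ i, ch hp θ (z⁻¹ * x i * z) = 1) :
    ∃ v, σ v = v ∧ ∀ i, ∀ y ∈ XX D l k θ ⊔ XX D l k (-θ), v * x i * v⁻¹ * y = y * (v * x i * v⁻¹) := by
  have := finite_W hp cs
  have hTL := TL_eq hp hk
  have hXL := XL_eq hp hk
  have H := tow hp cs hk r (k := k)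
  -- the element of `W`
  obtain ⟨w, hw, hwa⟩ := rep_of_fr hp cs hk r Fσ F.fr
  have hwθ : rep cs hp.isCartan w θ = θ := by
    have := hwa θ Hθ.1
    rw [hgθ, hγθ] at this
    exact this.symm
  have hwJ := mem_WJ_of_rep (cs := cs) (h := hp.isCartan) hdom hwθ
  obtain ⟨m, hm, hwm⟩ := exists_rep_WJ (hp := hp) (k := k) (r := r) hk (S := S0 hp cs θ) (fun j hj => by
    have h1 : cpr cs hp.isCartan (sr j) θ = 0 := by
      rw [cpr_zero_comm cs _ (isRoot_sr cs _ j) Hθ.1, cpr_sr]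
      exact mem_orth.1 hj
    refine ⟨⟨isRoot_sr cs _ j, h1⟩, (isRoot_sr cs _ j).neg, ?_⟩
    rw [cpr_neg cs _ _ Hθ.1, h1, neg_zero]) hwJ
  -- Lang's theorem
  have ht' : m⁻¹ * c ∈ TT D k := by rw [← hTL]; exact hwm.unique hw
  obtain ⟨s, hs, hs'⟩ := torus_lang hp cs hk hZ he hσ Fσ ht'
  have hsn := H.T_le_normalizer (S := S0 hp cs θ) (fun a ha => ha.1) (x := s) (by rw [hTL]; exact hs)
  rw [hXL] at hsn
  have hn₁ : s * m * s⁻¹ ∈ RGD.Sup (XX D l k) (S0 hp cs θ) := (Subgroup.mem_normalizer_iff.1 hsn m).1 hm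
  obtain ⟨y₃, hy₃, e3⟩ := lang_fr hp cs he hσ Fσ (S := S0 hp cs θ) (fun a ha => ha.1) (fun a ha => by
    refine ⟨(Fσ.root a).2 ha.1, ?_⟩
    have := cpr_g Fσ.root ha.1 Hθ.1
    rw [hgθ] at this
    rw [this]
    exact ha.2) hn₁
  -- the fixed element
  have hσ3 : σ y₃ = y₃ * (s * m * s⁻¹) := by rw [e3]; group
  have hσs : σ s = s * (m⁻¹ * c) := by rw [hs']; group
  have hσz : σ z = z * c := by rw [← F.eq]; group
  refine ⟨y₃ * s * z⁻¹, ?_, fun i y hy => ?_⟩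
  · rw [map_mul, map_mul, map_inv, hσ3, hσs, hσz]
    group
  · have hti := F.tor i
    obtain ⟨t, ht⟩ : ∃ t, t = z⁻¹ * x i * z := ⟨_, rfl⟩
    rw [← ht] at hti
    have hxi := hx i
    rw [← ht] at hxi
    have e1 : y₃ * s * z⁻¹ * x i * (y₃ * s * z⁻¹)⁻¹ = y₃ * (s * t * s⁻¹) * y₃⁻¹ := by rw [ht]; group
    have e2 : s * t * s⁻¹ = t := by rw [TT_comm hp s hs t hti]; group
    rw [e1, e2]
    -- `t` commutes with `y`, `y₃` commutes with `y`
    have h1 : XX D l k θ ⊔ XX D l k (-θ) ≤ Subgroup.centralizer {t, y₃} := by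
      have hC := coordsL hp cs hk r (k := k)
      refine sup_le ?_ ?_
      · intro u hu
        rw [Subgroup.mem_centralizer_iff]
        rintro _ (rfl | rfl)
        · obtain ⟨a, rfl⟩ := ((hC.coord θ Hθ.1).mem u).1 hu
          have h2 := ch_comm hp cs hk r Hθ.1 hti a
          rw [hxi, one_mul, mul_inv_eq_iff_eq_mul] at h2
          exact h2
        · exact S0_comm Hθ hy₃ hu
      · intro u hu
        rw [Subgroup.mem_centralizer_iff]
        rintro _ (rfl | rfl)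
        · obtain ⟨a, rfl⟩ := ((hC.coord _ Hθ.neg.1).mem u).1 hu
          have h2 := ch_comm hp cs hk r Hθ.neg.1 hti a
          rw [ch_neg hp cs hk r Hθ.1 hti, hxi, inv_one, one_mul, mul_inv_eq_iff_eq_mul] at h2
          exact h2
        · exact S0_comm Hθ.neg (by rw [S0_neg Hθ.1]; exact hy₃) hu
    have h2 := Subgroup.mem_centralizer_iff.1 (h1 hy)
    have h3 : t * y = y * t := h2 t (by simp)
    have h4 : y₃ * y = y * y₃ := h2 y₃ (by simp)
    have h5 : y₃⁻¹ * y = y * y₃⁻¹ := by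
      rw [inv_mul_eq_iff_eq_mul, ← mul_assoc, h4, mul_inv_cancel_right]
    calc y₃ * t * y₃⁻¹ * y = y₃ * t * (y₃⁻¹ * y) := by group
      _ = y₃ * (t * y) * y₃⁻¹ := by rw [h5]; group
      _ = y₃ * y * t * y₃⁻¹ := by rw [h3]; group
      _ = y * (y₃ * t * y₃⁻¹) := by rw [h4]; group

/-- sums of roots vanishing on the family -/
theorem SxS_add (r : ℕ) [Fact r.Prime] [CharP k r] (hk : LocFin k) {t : ι → ↥(D.group k)} (ht : ∀ i, t i ∈ TT D k)
    {a b : Fin l → ℤ} (ha : a ∈ SxS cs hp.isCartan (ch hp) t) (hb : b ∈ SxS cs hp.isCartan (ch hp) t)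
    (hr : IsRoot cs hp.isCartan (a + b)) : a + b ∈ SxS cs hp.isCartan (ch hp) t := by
  refine ⟨hr, fun i => ?_⟩
  obtain ⟨φ, h0, hadd, hφ⟩ := chAddL hp cs hk r (t i) (ht i)
  rw [hφ _ hr, hadd, ← hφ a ha.1, ← hφ b hb.1, ha.2, hb.2, one_mul]

include hk in
/-- **The main step.** -/
theorem Frm.main [Finite ι] (hZ : Subgroup.center ↥(D.group k) = ⊥) (he : 0 < e) (hσ : IsFrob r e σ)
    {g : (Fin l → ℤ) ≃+ (Fin l → ℤ)} (Fσ : Fr cs hp.isCartan (TT D k) (XX D l k) σ g) {θ : Fin l → ℤ}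
    (Hθ : LongR cs hp.isCartan θ) (hdom : Dom (cartanOf D l) θ) (hgθ : g θ = θ) (hσx : ∀ i, σ (x i) = x i)
    (F : Frm hp cs σ x z c γ) (hx : ∀ i, ch hp θ (z⁻¹ * x i * z) = 1)
    (h0 : cpr cs hp.isCartan (γ θ) θ ≠ 0 ∨ ∃ a, IsRoot cs hp.isCartan a ∧ a + a = θ - γ θ ∧
      cpr cs hp.isCartan (γ θ) a = -2 ∧ ∀ i, ch hp a (z⁻¹ * x i * z) = 1) :
    ∃ v, σ v = v ∧ ∀ i, ∀ y ∈ XX D l k θ ⊔ XX D l k (-θ), v * x i * v⁻¹ * y = y * (v * x i * v⁻¹) := by
  have := finite_W hp cs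
  have hTL := TL_eq hp hk
  have hXL := XL_eq hp hk
  have H := tow hp cs hk r (k := k)
  have C : Coords cs hp.isCartan (TL (Tj hp (k := k))) (nc hp k) (XL (Xj hp (k := k))) (xc hp) (ch hp) := by
    rw [hTL, hXL]; exact coordsL hp cs hk r
  have hA' : ChAdd cs hp.isCartan (TL (Tj hp (k := k))) (ch (K := k) hp) := by rw [hTL]; exact chAddL hp cs hk r
  obtain ⟨t, ht⟩ : ∃ t : ι → ↥(D.group k), t = fun i => z⁻¹ * x i * z := ⟨_, rfl⟩
  have hti : ∀ i, z⁻¹ * x i * z = t i := fun i => by rw [ht]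
  have htT : ∀ i, t i ∈ TT D k := fun i => by rw [← hti]; exact F.tor i
  have htT' : ∀ i, t i ∈ TL (Tj hp (k := k)) := fun i => by rw [hTL]; exact htT i
  have hfix : ∀ i, (MulAut.conj c * σ) (t i) = t i := fun i => by rw [← hti]; exact F.fix (hσx i)
  have F' : Fr cs hp.isCartan (TL (Tj hp (k := k))) (XL (Xj hp (k := k))) (MulAut.conj c * σ) γ := by
    rw [hTL, hXL]; exact F.fr
  have hmem := fun a => mem_SxS C F' htT' hfix a
  obtain ⟨S, hS⟩ : ∃ S, S = SxS cs hp.isCartan (ch hp) t := ⟨_, rfl⟩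
  have hθS : θ ∈ S := by rw [hS]; exact ⟨Hθ.1, fun i => by rw [← hti]; exact hx i⟩
  have hγS : γ θ ∈ S := by rw [hS, hmem, ← hS]; exact hθS
  have hneg : ∀ a ∈ S, -a ∈ S := fun a ha => by
    rw [hS] at ha ⊢
    exact SxS_neg C hA' htT' ha
  have hsub : ∀ a ∈ S, ∀ b ∈ S, IsRoot cs hp.isCartan (a - b) → a - b ∈ S := by
    intro a ha b hb hr
    have hb' := hneg b hb
    rw [hS] at ha hb' ⊢
    rw [sub_eq_add_neg] at hr ⊢
    exact SxS_add r hk htT ha hb' hr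
  -- the group of the represented elements
  let V : Subgroup W :=
    { carrier := {v | ∃ m ∈ MMS cs hp.isCartan (XL (Xj hp (k := k))) (ch hp) t,
        Rp cs (tow hp cs hk r (k := k)).nsys v m}
      one_mem' := ⟨1, one_mem _, rp_one⟩
      mul_mem' := by
        rintro a b ⟨m, hm, hm'⟩ ⟨m', hm1, hm2⟩
        exact ⟨m * m', mul_mem hm hm1, hm'.mul hm2⟩
      inv_mem' := by
        rintro a ⟨m, hm, hm'⟩
        exact ⟨m⁻¹, inv_mem hm, hm'.inv⟩ }
  have hV : ReflIn cs hp.isCartan S V := by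
    intro a ha
    rw [hS] at ha
    obtain ⟨w, i, hw, hwV⟩ := exists_rfl_MMS H C hA' htT' ha
    refine ⟨_, hwV, fun y => ?_⟩
    rw [rep_rfl'_eq, ← hw]
  obtain ⟨v, ⟨m, hm, hvm⟩, hvθ⟩ : ∃ v ∈ V, rep cs hp.isCartan v (γ θ) = θ := by
    rcases h0 with h0 | ⟨a, ha, h2a, hca, hat⟩
    · exact exists_move hV hneg hsub (Hθ.g F.fr.root) Hθ hγS hθS h0
    · refine exists_move_half hV ?_ h2a hca
      rw [hS]
      exact ⟨ha, fun i => by rw [← hti]; exact hat i⟩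
  -- Lang's theorem
  rw [hXL] at hm
  have hm' : m ∈ RGD.Sup (XX D l k) S := by rw [hS]; exact hm
  obtain ⟨y, hy, F2, hty⟩ := F.lang hk he hσ (S := S) (fun a ha => by rw [hS] at ha; exact ha.1)
    (fun a ha => by rw [hS] at ha ⊢; exact (hmem a).2 ha) (fun y hy i => by
      rw [hti]
      refine MMS_comm C htT' ?_ i
      rw [hXL]
      rw [hS] at hy
      exact hy) hm' hvm
  refine F2.fin hk hZ he hσ Fσ Hθ hdom hgθ hvθ fun i => ?_
  rw [hty]
  exact hx i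

end Fin

end Cfsg.Agent.H496.Gen.T2
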