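import Cfsg.Agent.H496.Gen.T2Root
import Cfsg.Agent.H720.TwFr

/-!
# The exceptional root systems (helper496, hub S2187, piece T2)

`Cmb hp cs γ` : the alternatives for an automorphism `γ` of the root system `D`, `θ` the highest root:
a conjugate `b` of `θ` with `⟨γ b, b^∨⟩ ≠ 0`, or a root `a` with `2 a = θ - γ θ` (`F₄`), or `D = E₈` and `γ ^ 2 = -1`.
* `cmb_untw` : `G₂, F₄, E₆, E₇, E₈`, all `γ`; `cmb_D4` : `γ = w ∘ g`, `g` the triality;
* `longR_top`, `dom_top` : the highest root is long and dominant.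
-/

set_option autoImplicit false
set_option linter.unusedSectionVars false

namespace Cfsg.Agent.H496.Gen.T2

open CoxeterSystem Cfsg Cfsg.Lie Cfsg.Lie.ChevalleyDatum
open Cfsg.Agent.ChevalleyStructure Cfsg.Agent.ChevalleyStructure.Elts Cfsg.Agent.ChevalleyStructure.CoxeterGeom
  Cfsg.Agent.ChevalleyStructure.CoxeterGeomTypes Cfsg.Agent.ChevalleyStructure.NPerm
open Cfsg.Agent.Tits.Roots Cfsg.Agent.Tits.Core Cfsg.Agent.Nodes Cfsg.Agent.Nodes.Reps Cfsg.Agent.Nodes.BNOf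
  Cfsg.Agent.Nodes.RGDChev Cfsg.Agent.Nodes.Coroot Cfsg.Agent.Nodes.KindChev Cfsg.Agent.H123.ExcComb
  Cfsg.Agent.BpExc.Fr

universe v

variable {D : ChevalleyDatum} {l : ℕ} {M : CoxeterMatrix (Fin l)} (hp : IsType D l M) {W : Type v} [Group W]
  (cs : CoxeterSystem M W)

/-- The alternatives. -/
def Cmb (γ : (Fin l → ℤ) ≃+ (Fin l → ℤ)) : Prop :=
  (∃ u : W, cpr cs hp.isCartan (γ (rep cs hp.isCartan u (vec D l (D.nroots - 1))))
    (rep cs hp.isCartan u (vec D l (D.nroots - 1))) ≠ 0) ∨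
  (∃ a, IsRoot cs hp.isCartan a ∧ a + a = vec D l (D.nroots - 1) - γ (vec D l (D.nroots - 1)) ∧
    cpr cs hp.isCartan (γ (vec D l (D.nroots - 1))) a = -2) ∨
  (D = chevE8 ∧ ∀ x, γ (γ x) = -x)

/-! ### simply laced -/

theorem cmb_sl (h4 : ∀ i j, M i j ≠ 4) (h6 : ∀ i j, M i j ≠ 6)
    (hdom : ∀ s < D.nroots, (∀ i, 0 ≤ pairing (cartanOf D l) i (vec D l s)) → vec D l s = vec D l (D.nroots - 1))
    (hconn : ∀ i j : Fin l, i ≠ j → pairing (cartanOf D l) i (sr j) = 0 →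
      ∃ s < D.nroots, pairing (cartanOf D l) i (vec D l s) = -1 ∧ pairing (cartanOf D l) j (vec D l s) = -1)
    {γ : (Fin l → ℤ) ≃+ (Fin l → ℤ)} (hγ : ∀ a, IsRoot cs hp.isCartan (γ a) ↔ IsRoot cs hp.isCartan a) :
    (∃ u : W, cpr cs hp.isCartan (γ (rep cs hp.isCartan u (vec D l (D.nroots - 1))))
      (rep cs hp.isCartan u (vec D l (D.nroots - 1))) ≠ 0) ∨ ∀ x, γ (γ x) = -x := by
  have := finite_W hp cs
  have hSL : ∀ x y, IsRoot cs hp.isCartan x → IsRoot cs hp.isCartan y →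
      cpr cs hp.isCartan x y = cpr cs hp.isCartan y x := fun _ _ hx hy => Nodes.SimplyLaced.cpr_symm cs _ h4 h6 hx hy
  by_cases H : ∀ b, IsRoot cs hp.isCartan b → cpr cs hp.isCartan (γ b) b = 0
  · right
    refine sq_neg hSL hγ (fun i j hij h0 => ?_) H
    obtain ⟨s, hs, h1, h2⟩ := hconn i j hij h0
    exact ⟨_, isRoot_vec hp cs hs, h1, h2⟩
  · left
    push Not at H
    obtain ⟨b, hb, hb0⟩ := H
    have := Fintype.ofFinite W
    obtain ⟨w, hw⟩ := Nodes.ClsNorm.exists_dominant (cs := cs) (h := hp.isCartan) b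
    obtain ⟨s, hs, hsb⟩ := (isRoot_iff hp cs _).1 (hb.act w)
    have h1 : rep cs hp.isCartan w b = vec D l (D.nroots - 1) := by
      rw [← hsb] at hw ⊢
      exact hdom s hs hw
    refine ⟨w⁻¹, ?_⟩
    rw [← h1, ← rep_mul_apply, inv_mul_cancel, map_one, Module.End.one_apply]
    exact hb0

/-- invariance of the Cartan numbers, first variable arbitrary -/
theorem cpr_g_lin [Finite W] {γ : (Fin l → ℤ) ≃+ (Fin l → ℤ)}
    (hγ : ∀ a, IsRoot cs hp.isCartan (γ a) ↔ IsRoot cs hp.isCartan a) (x : Fin l → ℤ) {y : Fin l → ℤ}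
    (hy : IsRoot cs hp.isCartan y) : cpr cs hp.isCartan (γ x) (γ y) = cpr cs hp.isCartan x y := by
  have hx : x = ∑ i, x i • sr i := by
    funext k
    rw [Finset.sum_apply, Finset.sum_eq_single k (fun b _ hb => by
      rw [Pi.smul_apply, sr_ne hb.symm, smul_zero]) (by simp), Pi.smul_apply, sr_self, smul_eq_mul, mul_one]
  have hlin : ∀ (y : Fin l → ℤ), IsRoot cs hp.isCartan y → ∀ (s : Finset (Fin l)) (f : Fin l → Fin l → ℤ),
      cpr cs hp.isCartan (∑ i ∈ s, f i) y = ∑ i ∈ s, cpr cs hp.isCartan (f i) y := by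
    intro y hy s f
    classical
    induction s using Finset.induction_on with
    | empty =>
      rw [Finset.sum_empty, Finset.sum_empty]
      have := cpr_smul cs hp.isCartan 0 0 hy
      rwa [zero_smul, zero_mul] at this
    | insert a s ha ih => rw [Finset.sum_insert ha, Finset.sum_insert ha, cpr_add cs _ _ _ hy, ih]
  rw [hx, map_sum, hlin _ ((hγ y).2 hy), hlin _ hy]
  refine Finset.sum_congr rfl fun i _ => ?_
  rw [map_zsmul, cpr_smul cs _ _ _ ((hγ y).2 hy), cpr_smul cs _ _ _ hy, cpr_g hγ (isRoot_sr cs _ i) hy]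

/-- the vectors with all Cartan numbers divisible by `n` are fixed modulo `n` by `W` -/
theorem rep_rad (n : ℤ) {x : Fin l → ℤ} (hx : ∀ i, n ∣ pairing (cartanOf D l) i x) (w : W) :
    ∃ z : Fin l → ℤ, rep cs hp.isCartan w x = x + n • z := by
  obtain ⟨ω, rfl⟩ := cs.wordProd_surjective w
  induction ω with
  | nil => exact ⟨0, by rw [wordProd_nil, map_one, Module.End.one_apply, smul_zero, add_zero]⟩
  | cons i ω ih =>
    obtain ⟨z, hz⟩ := ih
    obtain ⟨c, hc⟩ := hx i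
    refine ⟨rep cs hp.isCartan (cs.simple i) z - c • sr i, ?_⟩
    rw [wordProd_cons, rep_mul_apply, hz, map_add, map_zsmul, rep_simple_eq, hc]
    module

theorem pairing_zsmul_dvd (n : ℤ) (x z : Fin l → ℤ) (i : Fin l) (hx : n ∣ pairing (cartanOf D l) i x) :
    n ∣ pairing (cartanOf D l) i (x + n • z) := by
  rw [pairing_add, pairing_smul]
  exact dvd_add hx (Dvd.intro _ rfl)

/-- **`γ ^ 2 = -1` is impossible if the radical modulo `3` is one-dimensional.** -/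
theorem no_sq_neg_rad [Finite W] (i0 : Fin l) {x₀ : Fin l → ℤ} (hx0 : x₀ i0 = 1)
    (hx : ∀ i, (3 : ℤ) ∣ pairing (cartanOf D l) i x₀)
    (huniq : ∀ y : Fin l → ℤ, (∀ i, (3 : ℤ) ∣ pairing (cartanOf D l) i y) → ∀ i, (3 : ℤ) ∣ y i - y i0 * x₀ i)
    {γ : (Fin l → ℤ) ≃+ (Fin l → ℤ)} (hγ : ∀ a, IsRoot cs hp.isCartan (γ a) ↔ IsRoot cs hp.isCartan a)
    (H : ∀ x, γ (γ x) = -x) : False := by
  have hrad : ∀ i, (3 : ℤ) ∣ pairing (cartanOf D l) i (γ x₀) := by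
    intro i
    obtain ⟨b, hb⟩ := γ.surjective (sr i)
    have hbr : IsRoot cs hp.isCartan b := (hγ b).1 (by rw [hb]; exact isRoot_sr cs _ i)
    rw [← cpr_sr cs hp.isCartan, ← hb, cpr_g_lin hp cs hγ _ hbr]
    obtain ⟨w, j, rfl⟩ := hbr
    rw [cpr_rep_sr]
    obtain ⟨z, hz⟩ := rep_rad hp cs 3 hx w⁻¹
    rw [hz]
    exact pairing_zsmul_dvd 3 _ _ _ (hx j)
  have h1 := huniq _ hrad
  choose z hz using h1
  have h2 : γ x₀ = (γ x₀ i0) • x₀ + (3 : ℤ) • z := by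
    funext i
    have := hz i
    simp only [Pi.add_apply, Pi.smul_apply, smul_eq_mul]
    linarith
  obtain ⟨c, hc⟩ : ∃ c, c = γ x₀ i0 := ⟨_, rfl⟩
  rw [← hc] at h2
  have h3 : γ (γ x₀) = c • (c • x₀ + (3 : ℤ) • z) + (3 : ℤ) • γ z := by
    conv_lhs => rw [h2]
    rw [map_add, map_zsmul, map_zsmul, h2]
  rw [H] at h3
  have h4 := congrFun h3 i0
  simp only [Pi.add_apply, Pi.smul_apply, Pi.neg_apply, smul_eq_mul, hx0] at h4
  have h5 : (3 : ℤ) ∣ c * c + 1 := ⟨-(c * z i0 + γ z i0), by linarith⟩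
  have h6 : (c * c + 1) % 3 = 0 := Int.emod_eq_zero_of_dvd h5
  have h7 : c % 3 = 0 ∨ c % 3 = 1 ∨ c % 3 = 2 := by omega
  rcases h7 with h7 | h7 | h7 <;> · rw [Int.add_emod, Int.mul_emod, h7] at h6; omega

/-! ### tables with the quadratic form -/

/-- the table of the types with two root lengths -/
def TabF (D : ChevalleyDatum) (l : ℕ) (d : Fin l → ℤ) : Prop :=
  (∀ i j, d i * cartanOf D l i j = d j * cartanOf D l j i) ∧
  (∀ s < D.nroots, 0 < qf (cartanOf D l) d (vec D l s) (vec D l s)) ∧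
  (∀ s < D.nroots, vec D l s = vec D l (D.nroots - 1) ∨ vec D l s = -vec D l (D.nroots - 1) ∨
    |2 * qf (cartanOf D l) d (vec D l s) (vec D l (D.nroots - 1))| ≤
      qf (cartanOf D l) d (vec D l (D.nroots - 1)) (vec D l (D.nroots - 1))) ∧
  ∀ s < D.nroots, (∀ s' < D.nroots, vec D l s' = vec D l s ∨ vec D l s' = -vec D l s ∨
    |2 * qf (cartanOf D l) d (vec D l s') (vec D l s)| ≤ qf (cartanOf D l) d (vec D l s) (vec D l s)) →
    2 * qf (cartanOf D l) d (vec D l s) (vec D l (D.nroots - 1)) ≠ 0 ∨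
    ∃ s' < D.nroots, vec D l s' + vec D l s' = vec D l (D.nroots - 1) - vec D l s ∧
      2 * qf (cartanOf D l) d (vec D l s) (vec D l s') = -2 * qf (cartanOf D l) d (vec D l s') (vec D l s')

instance (D : ChevalleyDatum) (l : ℕ) (d : Fin l → ℤ) : Decidable (TabF D l d) := by unfold TabF; infer_instance

section F

variable {hp cs}

theorem longR_of_tabF [Finite W] (hn : 0 < D.nroots) {d : Fin l → ℤ} (T : TabF D l d) :
    LongR cs hp.isCartan (vec D l (D.nroots - 1)) := by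
  obtain ⟨h1, h2, h3, -⟩ := T
  have hr := isRoot_vec hp cs (Nat.sub_lt hn one_pos)
  refine ⟨hr, fun b hb hne hne' => ?_⟩
  obtain ⟨s, hs, rfl⟩ := (isRoot_iff hp cs _).1 hb
  have h4 := cpr_mul_qf cs hp.isCartan h1 (vec D l s) hr
  have h5 := h2 _ (Nat.sub_lt hn one_pos)
  rcases h3 s hs with h6 | h6 | h6
  · exact absurd h6 hne
  · exact absurd h6 hne'
  · rw [← h4, abs_mul, abs_of_pos h5] at h6
    have h7 : |cpr cs hp.isCartan (vec D l s) (vec D l (D.nroots - 1))| ≤ 1 := by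
      by_contra hcon
      push Not at hcon
      nlinarith
    exact abs_le.1 h7

theorem cmb_tabF [Finite W] (hn : 0 < D.nroots) {d : Fin l → ℤ} (T : TabF D l d)
    {γ : (Fin l → ℤ) ≃+ (Fin l → ℤ)} (hγ : ∀ a, IsRoot cs hp.isCartan (γ a) ↔ IsRoot cs hp.isCartan a) :
    Cmb hp cs γ := by
  have hL := longR_of_tabF (hp := hp) (cs := cs) hn T
  obtain ⟨h1, h2, -, h3⟩ := T
  have hθ := isRoot_vec hp cs (Nat.sub_lt hn one_pos)
  have hγL := hL.g hγ
  obtain ⟨s, hs, hsγ⟩ := (isRoot_iff hp cs _).1 hγL.1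
  rcases h3 s hs (fun s' hs' => by
    by_cases e1 : vec D l s' = vec D l s
    · exact Or.inl e1
    by_cases e2 : vec D l s' = -vec D l s
    · exact Or.inr (Or.inl e2)
    right; right
    rw [← cpr_mul_qf cs hp.isCartan h1 (vec D l s') (isRoot_vec hp cs hs), abs_mul, abs_of_pos (h2 s hs)]
    obtain ⟨h4, h5⟩ := hγL.2 _ (isRoot_vec hp cs hs') (by rw [← hsγ]; exact e1) (by rw [← hsγ]; exact e2)
    rw [← hsγ] at h4 h5
    have h6 := abs_le.2 ⟨h4, h5⟩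
    have h7 := h2 s hs
    nlinarith) with h4 | ⟨s', hs', h4, h5⟩
  · left
    refine ⟨1, ?_⟩
    rw [map_one, Module.End.one_apply, ← hsγ]
    intro h5
    apply h4
    rw [← cpr_mul_qf cs hp.isCartan h1 (vec D l s) hθ, h5, zero_mul]
  · right; left
    refine ⟨vec D l s', isRoot_vec hp cs hs', by rw [← hsγ]; exact h4, ?_⟩
    rw [← hsγ]
    have h6 := cpr_mul_qf cs hp.isCartan h1 (vec D l s) (isRoot_vec hp cs hs')
    rw [h5] at h6
    exact mul_right_cancel₀ (h2 s' hs').ne' h6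

end F

/-! ### the tables -/

set_option backward.isDefEq.respectTransparency false in
theorem ne_D4 : (∀ i j, coxeterD4 i j ≠ 4) ∧ ∀ i j, coxeterD4 i j ≠ 6 := by
  constructor <;> decide +kernel

set_option backward.isDefEq.respectTransparency false in
theorem ne_E6 : (∀ i j, CoxeterMatrix.E₆ i j ≠ 4) ∧ ∀ i j, CoxeterMatrix.E₆ i j ≠ 6 := by
  constructor <;> decide +kernel

set_option backward.isDefEq.respectTransparency false in
theorem ne_E7 : (∀ i j, CoxeterMatrix.E₇ i j ≠ 4) ∧ ∀ i j, CoxeterMatrix.E₇ i j ≠ 6 := by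
  constructor <;> decide +kernel

set_option backward.isDefEq.respectTransparency false in
theorem ne_E8 : (∀ i j, CoxeterMatrix.E₈ i j ≠ 4) ∧ ∀ i j, CoxeterMatrix.E₈ i j ≠ 6 := by
  constructor <;> decide +kernel

/-- the table of the simply laced types -/
def TabD (D : ChevalleyDatum) (l : ℕ) : Prop :=
  (∀ s < D.nroots, (∀ i : Fin l, 0 ≤ pairing (cartanOf D l) i (vec D l s)) → vec D l s = vec D l (D.nroots - 1)) ∧
  (∀ i j : Fin l, i ≠ j → pairing (cartanOf D l) i (sr j) = 0 →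
      ∃ s < D.nroots, pairing (cartanOf D l) i (vec D l s) = -1 ∧ pairing (cartanOf D l) j (vec D l s) = -1)

instance (D : ChevalleyDatum) (l : ℕ) : Decidable (TabD D l) := by unfold TabD; infer_instance

theorem tabD_D4 : TabD chevD4 4 := by decide +kernel
theorem tabD_E6 : TabD chevE6 6 := by decide +kernel
theorem tabD_E7 : TabD chevE7 7 := by decide +kernel
theorem tabD_E8 : TabD chevE8 8 := by decide +kernel
theorem tabF_G2 : TabF chevG2 2 ![1, 3] := by decide +kernel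
theorem tabF_F4 : TabF chevF4 4 ![1, 1, 2, 2] := by decide +kernel

theorem dom_G2 : ∀ i, 0 ≤ pairing (cartanOf chevG2 2) i (vec chevG2 2 (chevG2.nroots - 1)) := by decide +kernel
theorem dom_D4 : ∀ i, 0 ≤ pairing (cartanOf chevD4 4) i (vec chevD4 4 (chevD4.nroots - 1)) := by decide +kernel
theorem dom_F4 : ∀ i, 0 ≤ pairing (cartanOf chevF4 4) i (vec chevF4 4 (chevF4.nroots - 1)) := by decide +kernel
theorem dom_E6 : ∀ i, 0 ≤ pairing (cartanOf chevE6 6) i (vec chevE6 6 (chevE6.nroots - 1)) := by decide +kernel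
theorem dom_E7 : ∀ i, 0 ≤ pairing (cartanOf chevE7 7) i (vec chevE7 7 (chevE7.nroots - 1)) := by decide +kernel
theorem dom_E8 : ∀ i, 0 ≤ pairing (cartanOf chevE8 8) i (vec chevE8 8 (chevE8.nroots - 1)) := by decide +kernel

theorem pos_nroots : 0 < chevG2.nroots ∧ 0 < chevD4.nroots ∧ 0 < chevF4.nroots ∧ 0 < chevE6.nroots ∧
    0 < chevE7.nroots ∧ 0 < chevE8.nroots := by decide +kernel

/-- the highest root is dominant -/
theorem dom_top (hp : IsType D l M) (hB2 : D ≠ chevB2) : Dom (cartanOf D l) (vec D l (D.nroots - 1)) := by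
  simp only [IsType, typeList, List.mem_cons, List.not_mem_nil, or_false, Prod.mk.injEq] at hp
  rcases hp with ⟨rfl, h⟩ | ⟨rfl, h⟩ | ⟨rfl, h⟩ | ⟨rfl, h⟩ | ⟨rfl, h⟩ | ⟨rfl, h⟩ | ⟨rfl, h⟩
  · obtain rfl : l = 2 := congrArg Sigma.fst h
    exact dom_G2
  · exact absurd rfl hB2
  · obtain rfl : l = 4 := congrArg Sigma.fst h
    exact dom_D4
  · obtain rfl : l = 4 := congrArg Sigma.fst h
    exact dom_F4
  · obtain rfl : l = 6 := congrArg Sigma.fst h
    exact dom_E6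
  · obtain rfl : l = 7 := congrArg Sigma.fst h
    exact dom_E7
  · obtain rfl : l = 8 := congrArg Sigma.fst h
    exact dom_E8

/-- the cases -/
theorem cases_type (hp : IsType D l M) (hB2 : D ≠ chevB2) :
    (∃ d : Fin l → ℤ, TabF D l d ∧ 0 < D.nroots ∧ D ≠ chevD4) ∨
    ((∀ i j, M i j ≠ 4) ∧ (∀ i j, M i j ≠ 6) ∧ TabD D l ∧ 0 < D.nroots) := by
  simp only [IsType, typeList, List.mem_cons, List.not_mem_nil, or_false, Prod.mk.injEq] at hp
  obtain ⟨n1, n2, n3, n4, n5, n6⟩ := pos_nroots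
  rcases hp with ⟨rfl, h⟩ | ⟨rfl, h⟩ | ⟨rfl, h⟩ | ⟨rfl, h⟩ | ⟨rfl, h⟩ | ⟨rfl, h⟩ | ⟨rfl, h⟩
  · obtain rfl : l = 2 := congrArg Sigma.fst h
    exact Or.inl ⟨_, tabF_G2, n1, fun e => by
      have := congrArg ChevalleyDatum.nroots e
      revert this
      decide +kernel⟩
  · exact absurd rfl hB2
  · obtain rfl : l = 4 := congrArg Sigma.fst h
    obtain rfl := eq_of_heq (Sigma.mk.inj h).2
    exact Or.inr ⟨ne_D4.1, ne_D4.2, tabD_D4, n2⟩
  · obtain rfl : l = 4 := congrArg Sigma.fst h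
    exact Or.inl ⟨_, tabF_F4, n3, fun e => by
      have := congrArg ChevalleyDatum.nroots e
      revert this
      decide +kernel⟩
  · obtain rfl : l = 6 := congrArg Sigma.fst h
    obtain rfl := eq_of_heq (Sigma.mk.inj h).2
    exact Or.inr ⟨ne_E6.1, ne_E6.2, tabD_E6, n4⟩
  · obtain rfl : l = 7 := congrArg Sigma.fst h
    obtain rfl := eq_of_heq (Sigma.mk.inj h).2
    exact Or.inr ⟨ne_E7.1, ne_E7.2, tabD_E7, n5⟩
  · obtain rfl : l = 8 := congrArg Sigma.fst h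
    obtain rfl := eq_of_heq (Sigma.mk.inj h).2
    exact Or.inr ⟨ne_E8.1, ne_E8.2, tabD_E8, n6⟩

/-- **The highest root is long.** -/
theorem longR_top (hB2 : D ≠ chevB2) : LongR cs hp.isCartan (vec D l (D.nroots - 1)) := by
  have := finite_W hp cs
  rcases cases_type hp hB2 with ⟨d, h1, h2, -⟩ | ⟨h4, h6, -, hn⟩
  · exact longR_of_tabF (hp := hp) h2 h1
  · exact longR_of_sl (fun _ _ hx hy => Nodes.SimplyLaced.cpr_symm cs _ h4 h6 hx hy)
      (isRoot_vec hp cs (Nat.sub_lt hn one_pos))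

theorem huniq_E6 (y : Fin 6 → ℤ) (h : ∀ i, (3 : ℤ) ∣ pairing (cartanOf chevE6 6) i y) (i : Fin 6) :
    (3 : ℤ) ∣ y i - y 0 * (![1, 0, 2, 0, 1, 2] : Fin 6 → ℤ) i := by
  have hA : ∀ i j, cartanOf chevE6 6 i j = (![![2, 0, -1, 0, 0, 0], ![0, 2, 0, -1, 0, 0], ![-1, 0, 2, -1, 0, 0],
      ![0, -1, -1, 2, -1, 0], ![0, 0, 0, -1, 2, -1], ![0, 0, 0, 0, -1, 2]] : Fin 6 → Fin 6 → ℤ) i j := by
    decide +kernel
  have h0 := h 0
  have h1 := h 1
  have h2 := h 2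
  have h3 := h 3
  have h4 := h 4
  have h5 := h 5
  unfold pairing at h0 h1 h2 h3 h4 h5
  simp only [hA, Fin.sum_univ_succ, Fin.sum_univ_zero] at h0 h1 h2 h3 h4 h5
  simp at h0 h1 h2 h3 h4 h5
  fin_cases i <;> simp <;> omega

theorem no_E6 {M : CoxeterMatrix (Fin 6)} (hp : IsType chevE6 6 M) {W : Type v} [Group W] (cs : CoxeterSystem M W)
    {γ : (Fin 6 → ℤ) ≃+ (Fin 6 → ℤ)} (hγ : ∀ a, IsRoot cs hp.isCartan (γ a) ↔ IsRoot cs hp.isCartan a)
    (H : ∀ x, γ (γ x) = -x) : False := by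
  have := finite_W hp cs
  exact no_sq_neg_rad hp cs 0 (x₀ := ![1, 0, 2, 0, 1, 2]) rfl (by decide +kernel) huniq_E6 hγ H

/-- **`G₂, F₄, E₆, E₇, E₈`.** -/
theorem cmb_untw (hB2 : D ≠ chevB2) (hD4 : D ≠ chevD4) {γ : (Fin l → ℤ) ≃+ (Fin l → ℤ)}
    (hγ : ∀ a, IsRoot cs hp.isCartan (γ a) ↔ IsRoot cs hp.isCartan a) : Cmb hp cs γ := by
  have := finite_W hp cs
  rcases cases_type hp hB2 with ⟨d, h1, h2, -⟩ | ⟨h4, h6, hT, -⟩
  · exact cmb_tabF h2 h1 hγ
  rcases cmb_sl hp cs h4 h6 hT.1 hT.2 hγ with h | h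
  · exact Or.inl h
  have hp' := hp
  simp only [IsType, typeList, List.mem_cons, List.not_mem_nil, or_false, Prod.mk.injEq] at hp'
  rcases hp' with ⟨rfl, h'⟩ | ⟨rfl, h'⟩ | ⟨rfl, h'⟩ | ⟨rfl, h'⟩ | ⟨rfl, h'⟩ | ⟨rfl, h'⟩ | ⟨rfl, h'⟩
  · exfalso
    obtain rfl : l = 2 := congrArg Sigma.fst h'
    obtain rfl := eq_of_heq (Sigma.mk.inj h').2
    have h8 := hT.1
    revert h8
    decide +kernel
  · exact absurd rfl hB2
  · exact absurd rfl hD4
  · exfalso
    obtain rfl : l = 4 := congrArg Sigma.fst h'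
    have h8 := hT.1
    revert h8
    decide +kernel
  · obtain rfl : l = 6 := congrArg Sigma.fst h'
    exact (no_E6 hp cs hγ h).elim
  · obtain rfl : l = 7 := congrArg Sigma.fst h'
    exact (no_sq_neg_odd (by decide) h).elim
  · exact Or.inr (Or.inr ⟨rfl, h⟩)

/-- **`³D₄`.** -/
theorem cmb_D4 {M : CoxeterMatrix (Fin 4)} (hp : IsType chevD4 4 M) {W : Type v} [Group W] (cs : CoxeterSystem M W)
    {w : W} {γ : (Fin 4 → ℤ) ≃+ (Fin 4 → ℤ)}
    (hγ : ∀ a, IsRoot cs hp.isCartan (γ a) ↔ IsRoot cs hp.isCartan a)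
    (hw : γ = (H720.TwFr.permE H720.TwFr.rho4).trans (repAut cs hp.isCartan w)) : Cmb hp cs γ := by
  have := finite_W hp cs
  have hM : (∀ i j, M i j ≠ 4) ∧ ∀ i j, M i j ≠ 6 := by
    have hp' := hp
    simp only [IsType, typeList, List.mem_cons, List.not_mem_nil, or_false, Prod.mk.injEq] at hp'
    have hne : ∀ D' : ChevalleyDatum, D'.nroots ≠ 24 → chevD4 ≠ D' := by
      rintro D' h rfl
      exact h (by decide +kernel)
    rcases hp' with ⟨h, -⟩ | ⟨h, -⟩ | ⟨-, h⟩ | ⟨h, -⟩ | ⟨h, -⟩ | ⟨h, -⟩ | ⟨h, -⟩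
    · exact absurd h (hne _ (by decide +kernel))
    · exact absurd h (hne _ (by decide +kernel))
    · obtain rfl := eq_of_heq (Sigma.mk.inj h).2
      exact ne_D4
    · exact absurd h (hne _ (by decide +kernel))
    · exact absurd h (hne _ (by decide +kernel))
    · exact absurd h (hne _ (by decide +kernel))
    · exact absurd h (hne _ (by decide +kernel))
  rcases cmb_sl hp cs hM.1 hM.2 tabD_D4.1 tabD_D4.2 hγ with h | h
  · exact Or.inl h
  exfalso
  obtain ⟨ρ, hρ⟩ : ∃ ρ, ρ = H720.TwFr.permE H720.TwFr.rho4 := ⟨_, rfl⟩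
  rw [← hρ] at hw
  have hx1 : ∀ i, (2 : ℤ) ∣ pairing (cartanOf chevD4 4) i (ρ (![1, 0, 1, 0] : Fin 4 → ℤ)) := by
    rw [hρ]
    decide +kernel
  have hx2 : ∀ i, (2 : ℤ) ∣ pairing (cartanOf chevD4 4) i (ρ (ρ (![1, 0, 1, 0] : Fin 4 → ℤ))) := by
    rw [hρ]
    decide +kernel
  have hx3 : (ρ (ρ (![1, 0, 1, 0] : Fin 4 → ℤ))) 2 = 0 := by
    rw [hρ]
    decide +kernel
  obtain ⟨z, hz⟩ := rep_rad hp cs 2 hx1 w
  obtain ⟨z', hz'⟩ := rep_rad hp cs 2 hx2 w
  have e1 : γ (![1, 0, 1, 0] : Fin 4 → ℤ) = ρ (![1, 0, 1, 0] : Fin 4 → ℤ) + (2 : ℤ) • z := by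
    rw [hw]
    exact hz
  have e2 : γ (ρ (![1, 0, 1, 0] : Fin 4 → ℤ)) = ρ (ρ (![1, 0, 1, 0] : Fin 4 → ℤ)) + (2 : ℤ) • z' := by
    rw [hw]
    exact hz'
  have e3 := h (![1, 0, 1, 0] : Fin 4 → ℤ)
  rw [e1, map_add, e2, map_zsmul] at e3
  have e4 := congrFun e3 2
  simp only [Pi.add_apply, Pi.smul_apply, Pi.neg_apply, smul_eq_mul, hx3] at e4
  have e5 : (![1, 0, 1, 0] : Fin 4 → ℤ) 2 = 1 := rfl
  rw [e5] at e4
  omega

end Cfsg.Agent.H496.Gen.T2
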