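import Cfsg.Agent.H496.Gen.T2Frame
import Cfsg.Agent.H496.Gen.T2Tab
import Cfsg.Agent.H818.Gen.Exc

/-!
# Toral subgroups: a long root group commutes with a hyperplane (helper496, hub S2187, piece T2 = X2)

`m : MData hp r q K₀`, `E ≤ Y^σ` elementary abelian, toral.
* `exists_frame` : the frame of `E`;
* `toral_main` : there is `v ∈ Y^σ` such that `GamY` contains all `a ∈ K₀` with `v * ι a * v⁻¹ ∈ ⟨XX θ, XX (-θ)⟩`, `θ` the
  highest root; or `D = E₈`, `p ∣ q ^ 2 + 1`, and `E` has a frame with `γ ^ 2 = -1`, regular.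
* `toral_untw`, `toral_D4` : the instances.
-/

set_option autoImplicit false
set_option linter.unusedSectionVars false

namespace Cfsg.Agent.H496.Gen.T2

open CoxeterSystem Cfsg Cfsg.Lie Cfsg.Lie.ChevalleyDatum
open Cfsg.Agent.ChevalleyStructure Cfsg.Agent.ChevalleyStructure.Elts Cfsg.Agent.ChevalleyStructure.CoxeterGeom
  Cfsg.Agent.ChevalleyStructure.CoxeterGeomTypes Cfsg.Agent.ChevalleyStructure.NPerm
open Cfsg.Agent.Tits.Roots Cfsg.Agent.Tits.Core Cfsg.Agent.Nodes Cfsg.Agent.Nodes.Reps Cfsg.Agent.Nodes.BNOf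
  Cfsg.Agent.Nodes.RGDChev Cfsg.Agent.Nodes.Bruhat Cfsg.Agent.Nodes.StabComb Cfsg.Agent.Nodes.Coroot
  Cfsg.Agent.Nodes.SubComb
open Cfsg.Agent.KFacts.RgdField Cfsg.Agent.KFacts.RgdChevCoord
open Cfsg.Agent.BpExc Cfsg.Agent.BpExc.TorCent Cfsg.Agent.BpExc.TorChev Cfsg.Agent.BpExc.Tow
open Cfsg.Agent.BpExc.TowChev Cfsg.Agent.BpExc.Fr Cfsg.Agent.BpExc.LangFr Cfsg.Agent.BpExc.HX
open Cfsg.Agent.BpExc.NChev Cfsg.Agent.BpExc.NInst
open Cfsg.Agent.H123.ExcComb Cfsg.Agent.H696.GmnToral Cfsg.Agent.H496.Gen.PairSet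
open Cfsg.Agent.H469.Exc Cfsg.Agent.H316.U6 Cfsg.Agent.H818.Gen

universe u v w

/-! ### the kernel of a character -/

section Ker

variable {Y : Type*} [Group Y] {k : Type*} [Field k] {p : ℕ} [hpp : Fact p.Prime]

/-- the kernel of a character of `E` is `E` or a hyperplane -/
theorem relIndex_ker {E F : Subgroup Y} [Finite ↥E] (hE : ∀ y ∈ E, y ^ p = 1) {χ : Y → k}
    (hχ : ∀ y ∈ E, ∀ y' ∈ E, χ (y * y') = χ y * χ y') (h0 : ∀ y ∈ E, χ y ≠ 0) (hF : F ≤ E)
    (hF' : ∀ y ∈ E, y ∈ F ↔ χ y = 1) : F = E ∨ F.relIndex E = p := by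
  classical
  have h1 : χ 1 = 1 := by
    have := hχ 1 (one_mem _) 1 (one_mem _)
    rw [mul_one] at this
    exact (mul_eq_left₀ (h0 1 (one_mem _))).1 this.symm
  let f : ↥E →* kˣ := MonoidHom.mk' (fun y => Units.mk0 (χ y.1) (h0 _ y.2)) fun y y' =>
    Units.ext (hχ _ y.2 _ y'.2)
  have hker : F.subgroupOf E = f.ker := by
    ext y
    rw [Subgroup.mem_subgroupOf, MonoidHom.mem_ker, hF' _ y.2]
    constructor
    · intro h; exact Units.ext h
    · intro h; exact congrArg Units.val h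
  have hidx : F.relIndex E = Nat.card ↥f.range := by
    unfold Subgroup.relIndex
    rw [hker, Subgroup.index_ker]
  by_cases htr : f.range = ⊥
  · left
    refine le_antisymm hF fun y hy => ?_
    have h2 : f ⟨y, hy⟩ ∈ f.range := ⟨_, rfl⟩
    rw [htr, Subgroup.mem_bot] at h2
    exact (hF' y hy).2 (congrArg Units.val h2)
  · right
    rw [hidx]
    have : NeZero p := ⟨hpp.out.ne_zero⟩
    have hle : f.range ≤ rootsOfUnity p k := by
      rintro _ ⟨y, rfl⟩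
      rw [mem_rootsOfUnity, ← map_pow]
      have h2 : y ^ p = 1 := Subtype.ext (hE _ y.2)
      rw [h2, map_one]
    have h3 : Nat.card ↥f.range ≤ p := by
      exact (Subgroup.card_le_of_le hle).trans (card_rootsOfUnity k p)
    obtain ⟨y, hy, hy1⟩ : ∃ y ∈ f.range, y ≠ 1 := by
      by_contra hcon
      push Not at hcon
      exact htr ((Subgroup.eq_bot_iff_forall _).2 hcon)
    have h4 : orderOf y = p := orderOf_eq_prime ((mem_rootsOfUnity _ _).1 (hle hy)) hy1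
    have h5 : p ∣ Nat.card ↥f.range := by
      rw [← h4, ← Subgroup.orderOf_mk y hy]
      exact orderOf_dvd_natCard _
    have : Finite ↥f.range := Finite.of_surjective _ f.rangeRestrict_surjective
    exact le_antisymm h3 (Nat.le_of_dvd Nat.card_pos h5)

end Ker

variable {D : ChevalleyDatum} {l : ℕ} {M : CoxeterMatrix (Fin l)} {hp : IsType D l M}

/-! ### the frame -/

section Frame

variable {k : Type u} [Field k] {W : Type v} [Group W] (cs : CoxeterSystem M W) {r e : ℕ} [Fact r.Prime] [CharP k r]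
  [IsAlgClosed k] (hk : LocFin k)

include hk in
/-- **The frame of a toral family.** -/
theorem exists_frame {ι : Type w} [Finite ι] (he : 0 < e) {σ : MulAut ↥(D.group k)} (hσ : IsFrob r e σ)
    {g : (Fin l → ℤ) ≃+ (Fin l → ℤ)} (Fσ : Fr cs hp.isCartan (TT D k) (XX D l k) σ g) {x : ι → ↥(D.group k)}
    (hσx : ∀ i, σ (x i) = x i) {z : ↥(D.group k)} (hz : ∀ i, z⁻¹ * x i * z ∈ TT D k) :
    ∃ (z' c : ↥(D.group k)) (w : W), Frm hp cs σ x z' c (g.trans (repAut cs hp.isCartan w)) ∧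
      Rp cs (tow hp cs hk r (k := k)).nsys w c ∧
      (∀ i, z'⁻¹ * x i * z' = z⁻¹ * x i * z) ∧
      ∀ a ∈ SxS cs hp.isCartan (ch hp) (fun i => z'⁻¹ * x i * z'), 0 ≤ a →
        0 ≤ (g.trans (repAut cs hp.isCartan w)) a := by
  have := finite_W hp cs
  have hTL := TL_eq hp hk
  have hXL := XL_eq hp hk
  have H := tow hp cs hk r (k := k)
  have C : Coords cs hp.isCartan (TL (Tj hp (k := k))) (nc hp k) (XL (Xj hp (k := k))) (xc hp) (ch hp) := by
    rw [hTL, hXL]; exact coordsL hp cs hk r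
  have hA' : ChAdd cs hp.isCartan (TL (Tj hp (k := k))) (ch (K := k) hp) := by rw [hTL]; exact chAddL hp cs hk r
  have hG := GG_eq_top (k := k) hp cs hk
  have Fσ' : Fr cs hp.isCartan (TL (Tj hp (k := k))) (XL (Xj hp (k := k))) σ g := by rw [hTL, hXL]; exact Fσ
  obtain ⟨t, ht⟩ : ∃ t : ι → ↥(D.group k), t = fun i => z⁻¹ * x i * z := ⟨_, rfl⟩
  have hti : ∀ i, z⁻¹ * x i * z = t i := fun i => by rw [ht]
  have htT : ∀ i, t i ∈ TL (Tj hp (k := k)) := fun i => by rw [← hti, hTL]; exact hz i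
  obtain ⟨z', c, w, h1, h2, h3, h4, h5, h6⟩ := pair_reduction_set H C hA' hG Fσ' hσx hti htT
    (fun k' g' F' htt m hm => by
      have h1 := fun a => mem_SxS C F' htT htt a
      rw [hTL, hXL] at F'
      rw [hXL] at hm ⊢
      exact lang_fr hp cs he (hσ.conj_mul k') F' (S := SxS cs hp.isCartan (ch hp) t) (fun a ha => ha.1)
        (fun a ha => (h1 a).2 ha) hm)
  rw [hTL, hXL] at h4
  refine ⟨z', c, w, ⟨fun i => ?_, h3, h4⟩, h1, fun i => by rw [h2, hti], fun a ha h0 => h6 a ?_ h0⟩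
  · rw [h2, ← hti]; exact hz i
  · have : (fun i => z'⁻¹ * x i * z') = t := funext h2
    rw [this] at ha
    exact ha

end Frame

/-! ### the main theorem -/

section Main

variable {k : Type u} [Field k] {W : Type v} [Group W] (cs : CoxeterSystem M W) {r e : ℕ} [Fact r.Prime] [CharP k r]
  [IsAlgClosed k] (hk : LocFin k)

/-- the conclusion: a conjugate of a hyperplane under a fixed element commutes with the long root group -/
def LongComm (l : ℕ) (σ : MulAut ↥(D.group k)) (p : ℕ) (E : Subgroup ↥(D.group k)) : Prop :=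
  ∃ v, σ v = v ∧ ∃ F ≤ E, (F = E ∨ F.relIndex E = p) ∧
    ∀ y ∈ F, ∀ u ∈ XX D l k (vec D l (D.nroots - 1)) ⊔ XX D l k (-vec D l (D.nroots - 1)),
      v * y * v⁻¹ * u = u * (v * y * v⁻¹)

/-- the exceptional case: a frame with `γ ^ 2 = -1` and regular -/
def ExcFrame (hp : IsType D l M) (σ : MulAut ↥(D.group k)) (g : (Fin l → ℤ) ≃+ (Fin l → ℤ)) (hk : LocFin k) (r : ℕ)
    [Fact r.Prime] [CharP k r] (E : Subgroup ↥(D.group k)) : Prop :=
  D = chevE8 ∧ ∃ (z c : ↥(D.group k)) (w : W), Frm hp cs σ (fun y : ↥E => y.1) z c (g.trans (repAut cs hp.isCartan w)) ∧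
    Rp cs (tow hp cs hk r (k := k)).nsys w c ∧ (∀ x, (g.trans (repAut cs hp.isCartan w))
      ((g.trans (repAut cs hp.isCartan w)) x) = -x) ∧
    SxS cs hp.isCartan (ch hp) (fun y : ↥E => z⁻¹ * y.1 * z) = ∅

include hk in
/-- the kernel of `χ_θ` on a frame -/
theorem longComm_of_main (r : ℕ) [Fact r.Prime] [CharP k r] {σ : MulAut ↥(D.group k)} {p : ℕ} [Fact p.Prime] {E : Subgroup ↥(D.group k)} [Finite ↥E]
    (hE : ∀ y ∈ E, y ^ p = 1) {z : ↥(D.group k)} (hz : ∀ y ∈ E, z⁻¹ * y * z ∈ TT D k)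
    (hθ : IsRoot cs hp.isCartan (vec D l (D.nroots - 1)))
    (h : ∃ v, σ v = v ∧ ∀ i : {y : ↥E // ch hp (vec D l (D.nroots - 1)) (z⁻¹ * y.1 * z) = 1},
      ∀ u ∈ XX D l k (vec D l (D.nroots - 1)) ⊔ XX D l k (-vec D l (D.nroots - 1)),
      v * i.1.1 * v⁻¹ * u = u * (v * i.1.1 * v⁻¹)) : LongComm l σ p E := by
  obtain ⟨v, hv, h1⟩ := h
  have hmul : ∀ y ∈ E, ∀ y' ∈ E, ch hp (vec D l (D.nroots - 1)) (z⁻¹ * (y * y') * z) =
      ch hp (vec D l (D.nroots - 1)) (z⁻¹ * y * z) * ch hp (vec D l (D.nroots - 1)) (z⁻¹ * y' * z) := by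
    intro y hy y' hy'
    rw [← ch_mul hp cs hk r hθ (hz y hy) (hz y' hy')]
    congr 1
    group
  have h0 : ∀ y ∈ E, ch hp (vec D l (D.nroots - 1)) (z⁻¹ * y * z) ≠ 0 := fun y hy =>
    ch_ne_zero hp cs hk r hθ (hz y hy)
  have h1' : ch hp (vec D l (D.nroots - 1)) (z⁻¹ * 1 * z) = 1 := by
    rw [mul_one, inv_mul_cancel]
    exact ch_one hp cs hk r hθ
  let F : Subgroup ↥(D.group k) :=
    { carrier := {y | y ∈ E ∧ ch hp (vec D l (D.nroots - 1)) (z⁻¹ * y * z) = 1}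
      one_mem' := ⟨one_mem _, h1'⟩
      mul_mem' := by
        rintro a b ⟨ha, ha'⟩ ⟨hb, hb'⟩
        exact ⟨mul_mem ha hb, by rw [hmul a ha b hb, ha', hb', one_mul]⟩
      inv_mem' := by
        rintro a ⟨ha, ha'⟩
        refine ⟨inv_mem ha, ?_⟩
        have h2 := hmul a ha a⁻¹ (inv_mem ha)
        rw [mul_inv_cancel, h1', ha', one_mul] at h2
        exact h2.symm }
  have hF : F ≤ E := fun y hy => hy.1
  refine ⟨v, hv, F, hF, relIndex_ker hE (χ := fun y => ch hp (vec D l (D.nroots - 1)) (z⁻¹ * y * z)) hmul h0 hF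
    (fun y hy => ⟨fun h => h.2, fun h => ⟨hy, h⟩⟩), fun y hy u hu => ?_⟩
  exact h1 ⟨⟨y, hy.1⟩, hy.2⟩ u hu

include hk in
/-- **The main theorem for `D.group k`.** -/
theorem longComm_or (hZ : Subgroup.center ↥(D.group k) = ⊥) (hB2 : D ≠ chevB2) (he : 0 < e)
    {σ : MulAut ↥(D.group k)} (hσ : IsFrob r e σ) {g : (Fin l → ℤ) ≃+ (Fin l → ℤ)}
    (Fσ : Fr cs hp.isCartan (TT D k) (XX D l k) σ g) (hg : g (vec D l (D.nroots - 1)) = vec D l (D.nroots - 1))
    (hcmb : ∀ w : W, (∀ a, IsRoot cs hp.isCartan ((g.trans (repAut cs hp.isCartan w)) a) ↔ IsRoot cs hp.isCartan a) →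
      Cmb hp cs (g.trans (repAut cs hp.isCartan w))) {p : ℕ} [Fact p.Prime] (hp2 : p ≠ 2)
    {E : Subgroup ↥(D.group k)} [Finite ↥E] (hE : ∀ y ∈ E, y ^ p = 1) (hEσ : ∀ y ∈ E, σ y = y)
    {z : ↥(D.group k)} (hz : ∀ y ∈ E, z⁻¹ * y * z ∈ TT D k) :
    LongComm l σ p E ∨ ExcFrame cs hp σ g hk r E := by
  have := finite_W hp cs
  have Hθ := longR_top hp cs hB2
  have hdom := dom_top hp hB2
  obtain ⟨z', c, w, F, hw, -, hpos⟩ := exists_frame (hp := hp) cs hk (r := r) he hσ Fσ (x := fun y : ↥E => y.1)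
    (fun y => hEσ _ y.2) (z := z) (fun y => hz _ y.2)
  obtain ⟨γ, hγ⟩ : ∃ γ, γ = g.trans (repAut cs hp.isCartan w) := ⟨_, rfl⟩
  have hFr := F.fr
  have hcm := hcmb w F.fr.root
  rw [← hγ] at F hpos hcm hFr
  have hxp : ∀ (z₁ : ↥(D.group k)) (y : ↥E), (z₁⁻¹ * y.1 * z₁) ^ p = 1 := by
    intro z₁ y
    have h1 : z₁⁻¹ * y.1 * z₁ = z₁⁻¹ * y.1 * z₁⁻¹⁻¹ := by rw [inv_inv]
    rw [h1, conj_pow, hE _ y.2, mul_one, mul_inv_cancel]
  rcases hcm with ⟨u, hu⟩ | ⟨a, ha, h2a, hca⟩ | ⟨hD8, h8⟩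
  · -- conjugation by an element of `N`
    left
    obtain ⟨n, -, hn⟩ := (tow hp cs hk r (k := k)).exists_rp u⁻¹
    have F1 := F.conj hk hn
    refine longComm_of_main (hp := hp) cs hk r hE (z := z' * n⁻¹) (fun y hy => F1.tor ⟨y, hy⟩) Hθ.1 ?_
    refine (F1.comp (fun i : {y : ↥E // ch hp (vec D l (D.nroots - 1)) ((z' * n⁻¹)⁻¹ * y.1 * (z' * n⁻¹)) = 1} =>
      i.1)).main hk hZ he hσ Fσ Hθ hdom hg (fun i => hEσ _ i.1.2) (fun i => i.2) (Or.inl ?_)
    have h1 : ((repAut cs hp.isCartan u⁻¹).symm.trans (γ.trans (repAut cs hp.isCartan u⁻¹)))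
        (vec D l (D.nroots - 1)) = rep cs hp.isCartan u⁻¹ (γ (rep cs hp.isCartan u (vec D l (D.nroots - 1)))) := by
      show rep cs hp.isCartan u⁻¹ (γ (rep cs hp.isCartan u⁻¹⁻¹ (vec D l (D.nroots - 1)))) = _
      rw [inv_inv]
    rw [h1]
    intro h2
    apply hu
    have h3 := cpr_rep cs hp.isCartan u (rep cs hp.isCartan u⁻¹ (γ (rep cs hp.isCartan u (vec D l (D.nroots - 1)))))
      Hθ.1
    rw [← rep_mul_apply, mul_inv_cancel, map_one, Module.End.one_apply, h2] at h3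
    exact h3
  · -- the half difference
    left
    refine longComm_of_main (hp := hp) cs hk r hE (z := z') (fun y hy => F.tor ⟨y, hy⟩) Hθ.1 ?_
    refine (F.comp (fun i : {y : ↥E // ch hp (vec D l (D.nroots - 1)) (z'⁻¹ * y.1 * z') = 1} => i.1)).main hk hZ he hσ
      Fσ Hθ hdom hg (fun i => hEσ _ i.1.2) (fun i => i.2) (Or.inr ⟨a, ha, h2a, hca, fun i => ?_⟩)
    have htT := F.tor i.1
    have hfix := F.fix (i := i.1) (hEσ _ i.1.2)
    obtain ⟨t, ht⟩ : ∃ t, t = z'⁻¹ * i.1.1 * z' := ⟨_, rfl⟩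
    have hθt := i.2
    rw [← ht] at htT hfix hθt
    show ch hp a (z'⁻¹ * i.1.1 * z') = 1
    rw [← ht]
    -- the characters of `θ`, `γ θ`
    have h1 : ch hp (γ (vec D l (D.nroots - 1))) t = 1 := by
      have h2 := fr_ch hp cs hk (hσ.conj_mul c) F.fr Hθ.1 htT
      rw [hfix, hθt, one_pow] at h2
      exact h2
    obtain ⟨φ, hφ0, hadd, hφ⟩ := chAddL hp cs hk r t htT
    have h3 : φ a * φ a = 1 := by
      rw [← hadd, h2a]
      have h4 : φ (vec D l (D.nroots - 1) - γ (vec D l (D.nroots - 1))) * φ (γ (vec D l (D.nroots - 1))) =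
          φ (vec D l (D.nroots - 1)) := by rw [← hadd, sub_add_cancel]
      rw [← hφ _ Hθ.1, hθt, ← hφ _ ((F.fr.root _).2 Hθ.1), h1, mul_one] at h4
      exact h4
    rw [← hφ a ha] at h3
    have h5 : ch hp a t ^ p = 1 := by
      rw [← ch_pow hp cs hk r ha htT, ht, hxp z' i.1]
      exact ch_one hp cs hk r ha
    have h6 : ch hp a t ^ 2 = 1 := by rw [pow_two]; exact h3
    have h7 : Nat.Coprime p 2 := (Nat.coprime_primes (Fact.out : p.Prime) Nat.prime_two).2 hp2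
    have h8 : ch hp a t ^ Nat.gcd p 2 = 1 := pow_gcd_eq_one.2 ⟨h5, h6⟩
    rw [h7, pow_one] at h8
    exact h8
  · right
    refine ⟨hD8, z', c, w, by rw [← hγ]; exact F, hw, by rw [← hγ]; exact h8, ?_⟩
    rw [Set.eq_empty_iff_forall_notMem]
    intro a ha
    -- positivity
    have hTL := TL_eq hp hk
    have hXL := XL_eq hp hk
    have C : Coords cs hp.isCartan (TL (Tj hp (k := k))) (nc hp k) (XL (Xj hp (k := k))) (xc hp) (ch hp) := by
      rw [hTL, hXL]; exact coordsL hp cs hk r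
    have hA' : ChAdd cs hp.isCartan (TL (Tj hp (k := k))) (ch (K := k) hp) := by rw [hTL]; exact chAddL hp cs hk r
    have hFr' : Fr cs hp.isCartan (TL (Tj hp (k := k))) (XL (Xj hp (k := k))) (MulAut.conj c * σ) γ := by
      rw [hTL, hXL]; exact F.fr
    have htT : ∀ y : ↥E, z'⁻¹ * y.1 * z' ∈ TL (Tj hp (k := k)) := fun y => by rw [hTL]; exact F.tor y
    have hmem := fun a => mem_SxS C hFr' htT (fun y => F.fix (i := y) (hEσ _ y.2)) a
    have key : ∀ a ∈ SxS cs hp.isCartan (ch hp) (fun y : ↥E => z'⁻¹ * y.1 * z'), 0 ≤ a → False := by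
      intro a ha h0
      have h1 := hpos a ha h0
      have h2 := hpos _ ((hmem a).2 ha) h1
      rw [h8] at h2
      exact ha.1.ne_zero (le_antisymm (neg_nonneg.1 h2) h0)
    rcases ha.1.pos_or_neg with h1 | h1
    · exact key a ha h1
    · exact key _ (SxS_neg C hA' htT ha) (neg_nonneg.2 h1)

end Main

end Cfsg.Agent.H496.Gen.T2
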