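import Cfsg.Agent.H496.Gen.T2Comb
import Cfsg.Agent.Nodes.SimplyLaced
import Cfsg.Agent.Nodes.KindChev
import Cfsg.Agent.Nodes.ClsNorm

/-!
# Automorphisms of root systems moving every root to an orthogonal one (helper496, hub S2187, piece T2)

* `sq_neg` : simply laced, connected: if `γ b ⟂ b` for all roots `b`, then `γ ^ 2 = -1`;
* `no_sq_neg_odd` : impossible in odd rank; `no_sq_neg_rad` : impossible if the form has a one-dimensional radical modulo 3
  (`E₆`).
-/

set_option autoImplicit false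
set_option linter.unusedSectionVars false

namespace Cfsg.Agent.H496.Gen.T2

open CoxeterSystem Cfsg.Agent.ChevalleyStructure.CoxeterGeom Cfsg.Agent.Tits.Roots Cfsg.Agent.Tits.Core
  Cfsg.Agent.Tits.RootComb Cfsg.Agent.Tits.Exchange Cfsg.Agent.Nodes.Reps Cfsg.Agent.Nodes.BNOf
  Cfsg.Agent.Nodes.StabComb Cfsg.Agent.Nodes.SubComb Cfsg.Agent.Nodes.Coroot Cfsg.Agent.H123.ExcComb
  Cfsg.Agent.BpExc.Fr

variable {I W : Type*} [Fintype I] [DecidableEq I] [Group W] [Finite W] {M : CoxeterMatrix I}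
  {cs : CoxeterSystem M W} {A : I → I → ℤ} {h : IsCartan M A}

/-- a vector orthogonal to all simple roots is `0` -/
theorem eq_zero_of_pairing (cs : CoxeterSystem M W) (h : IsCartan M A) {x : I → ℤ} (hx : ∀ i, pairing A i x = 0) :
    x = 0 := by
  have := Fintype.ofFinite W
  by_contra hne
  have h1 := form_pos cs h hne
  have h2 : ∀ k, form cs h x (sr k) = 0 := by
    intro k
    have h3 := (form_sr_nonneg_iff cs h k x).2 (hx k).ge
    by_contra h4
    have h5 : 0 < form cs h x (sr k) := lt_of_le_of_ne h3 (Ne.symm h4)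
    have := (form_sr_pos_iff cs h k x).1 h5
    rw [hx k] at this
    exact lt_irrefl _ this
  rw [form_eq_sum, Finset.sum_eq_zero (fun k _ => by rw [h2, mul_zero])] at h1
  exact lt_irrefl _ h1

section SL

variable (hSL : ∀ x y, IsRoot cs h x → IsRoot cs h y → cpr cs h x y = cpr cs h y x)

include hSL

theorem longR_of_sl {x : I → ℤ} (hx : IsRoot cs h x) : LongR cs h x := by
  refine ⟨hx, fun b hb h1 h2 => ?_⟩
  have h3 := Cfsg.Agent.KFacts.RgdSL.cpr_mul_lt hb hx h1 h2
  rw [hSL x b hx hb] at h3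
  constructor <;> nlinarith

theorem cpr_add_right {x y y' : I → ℤ} (hx : IsRoot cs h x) (hy : IsRoot cs h y) (hy' : IsRoot cs h y')
    (hyy : IsRoot cs h (y + y')) : cpr cs h x (y + y') = cpr cs h x y + cpr cs h x y' := by
  rw [hSL _ _ hx hyy, cpr_add cs h _ _ hx, hSL _ _ hy hx, hSL _ _ hy' hx]

/-- **`γ b ⟂ b` for all roots `b` : `γ ^ 2 = -1`.** -/
theorem sq_neg {γ : (I → ℤ) ≃+ (I → ℤ)} (hγ : ∀ a, IsRoot cs h (γ a) ↔ IsRoot cs h a)
    (hconn : ∀ i j, i ≠ j → pairing A i (sr j) = 0 → ∃ d, IsRoot cs h d ∧ pairing A i d = -1 ∧ pairing A j d = -1)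
    (H : ∀ b, IsRoot cs h b → cpr cs h (γ b) b = 0) (x : I → ℤ) : γ (γ x) = -x := by
  have hγ' : ∀ a, IsRoot cs h (γ.symm a) ↔ IsRoot cs h a := fun a => by
    rw [← hγ (γ.symm a), AddEquiv.apply_symm_apply]
  -- the vector `γ b + γ⁻¹ b`
  have key : ∀ b d, IsRoot cs h b → IsRoot cs h d → cpr cs h d b = -1 →
      cpr cs h (γ b + γ.symm b) d = 0 := by
    intro b d hb hd hdb
    have hne : d ≠ -b := by
      rintro rfl
      rw [cpr_self_neg hb] at hdb
      omega
    have hr : IsRoot cs h (d + b) := add_root hd hb hne (by rw [hdb]; norm_num)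
    have h1 := H _ hr
    rw [map_add, cpr_add cs h _ _ hr, cpr_add_right hSL ((hγ d).2 hd) hd hb hr,
      cpr_add_right hSL ((hγ b).2 hb) hd hb hr, H d hd, H b hb] at h1
    have h2 : cpr cs h (γ.symm b) d = cpr cs h (γ d) b := by
      have h3 := cpr_g hγ ((hγ' b).2 hb) hd
      rw [AddEquiv.apply_symm_apply] at h3
      rw [← h3, hSL _ _ hb ((hγ d).2 hd)]
    rw [cpr_add cs h _ _ hd, h2]
    omega
  have key0 : ∀ b, IsRoot cs h b → cpr cs h (γ b + γ.symm b) b = 0 := by
    intro b hb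
    have h3 := cpr_g hγ ((hγ' b).2 hb) hb
    rw [AddEquiv.apply_symm_apply, hSL _ _ hb ((hγ b).2 hb), H b hb] at h3
    rw [cpr_add cs h _ _ hb, H b hb, ← h3, add_zero]
  have key2 : ∀ j, γ (sr j) + γ.symm (sr j) = 0 := by
    intro j
    have hj := isRoot_sr cs h j
    refine eq_zero_of_pairing cs h fun i => ?_
    have hi := isRoot_sr cs h i
    rw [← cpr_sr cs h]
    by_cases hij : i = j
    · rw [hij]
      exact key0 _ hj
    by_cases h0 : pairing A i (sr j) = 0
    · obtain ⟨d, hd, h1, h2⟩ := hconn i j hij h0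
      have hr : IsRoot cs h (d + sr i) := add_root hd hi (by
        rintro rfl
        rw [← cpr_sr cs h, cpr_self_neg hi] at h1
        omega) (by rw [cpr_sr, h1]; norm_num)
      have h3 : cpr cs h (d + sr i) (sr j) = -1 := by
        rw [cpr_add cs h _ _ hj, cpr_sr, h2, hSL _ _ hi hj, cpr_sr, h0, add_zero]
      have h4 := key _ _ hj hr h3
      have h5 := key _ _ hj hd (by rw [cpr_sr, h2])
      rw [cpr_add cs h _ _ hr, cpr_add_right hSL ((hγ _).2 hj) hd hi hr, cpr_add_right hSL ((hγ' _).2 hj) hd hi hr] at h4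
      rw [cpr_add cs h _ _ hd] at h5
      rw [cpr_add cs h _ _ hi]
      omega
    · have hne' : sr i ≠ -sr j := by
        intro e
        have := congrFun e i
        rw [sr_self, Pi.neg_apply, sr_ne hij] at this
        omega
      have hne : sr i ≠ sr j := by
        intro e
        have := congrFun e i
        rw [sr_self, sr_ne hij] at this
        omega
      obtain ⟨h1, h2⟩ := (longR_of_sl hSL hj).2 _ hi hne hne'
      have h3 : cpr cs h (sr i) (sr j) ≠ 0 := by
        rw [hSL _ _ hi hj, cpr_sr]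
        exact h0
      have h4 : cpr cs h (sr i) (sr j) = -1 ∨ cpr cs h (sr i) (sr j) = 1 := by omega
      rcases h4 with h4 | h4
      · exact key _ _ hj hi h4
      · have h5 := key _ _ hj hi.neg (by rw [cpr_neg cs h _ hj, h4])
        rw [cpr_neg_right cs h _ hi] at h5
        omega
  have key3 : ∀ j, γ (γ (sr j)) = -sr j := by
    intro j
    have h1 : γ (sr j) = -γ.symm (sr j) := eq_neg_of_add_eq_zero_left (key2 j)
    rw [h1, map_neg, AddEquiv.apply_symm_apply]
  have hx : x = ∑ i, x i • sr i := by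
    funext k
    rw [Finset.sum_apply, Finset.sum_eq_single k (fun b _ hb => by
      rw [Pi.smul_apply, sr_ne hb.symm, smul_zero]) (by simp), Pi.smul_apply, sr_self, smul_eq_mul, mul_one]
  rw [hx, map_sum, map_sum, ← Finset.sum_neg_distrib]
  refine Finset.sum_congr rfl fun i _ => ?_
  rw [map_zsmul, map_zsmul, key3, smul_neg]

end SL

/-- **Odd rank.** -/
theorem no_sq_neg_odd {n : ℕ} (hn : Odd n) {γ : (Fin n → ℤ) ≃+ (Fin n → ℤ)} (H : ∀ x, γ (γ x) = -x) : False := by
  have h1 : γ.toIntLinearEquiv.toLinearMap ∘ₗ γ.toIntLinearEquiv.toLinearMap = (-1 : ℤ) • LinearMap.id := by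
    apply LinearMap.ext
    intro x
    show γ (γ x) = (-1 : ℤ) • x
    rw [H, neg_one_smul]
  have h2 := congrArg LinearMap.det h1
  rw [LinearMap.det_comp, LinearMap.det_smul, LinearMap.det_id, Module.finrank_fin_fun, hn.neg_one_pow] at h2
  nlinarith [mul_self_nonneg (LinearMap.det γ.toIntLinearEquiv.toLinearMap)]

end Cfsg.Agent.H496.Gen.T2
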